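import Mathlib

/-! Linear algebra for the fixed space bound: permuted summands, weight spaces, endomorphisms. -/

namespace Cfsg.Agent.H1.Flv

open Module

variable {k : Type*} [Field k] {U : Type*} [AddCommGroup U] [Module k U]

theorem finrank_finset_sup_le [FiniteDimensional k U] {ι : Type*} (W : ι → Submodule k U) (d : ℕ)
    (hd : ∀ i, finrank k (W i) ≤ d) (s : Finset ι) : finrank k ↥(s.sup W) ≤ s.card * d := by
  classical
  induction s using Finset.induction_on with
  | empty => simp
  | insert a s ha ih =>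
    rw [Finset.sup_insert, Finset.card_insert_of_notMem ha]
    have := Submodule.finrank_add_le_finrank_add_finrank (W a) (s.sup W)
    have := hd a
    nlinarith

/-- Orbit count for a group of prime order. -/
theorem orbits_card {G Ω : Type*} [Group G] [Finite G] [Finite Ω] [MulAction G Ω] {p : ℕ} (hp : p.Prime)
    {x : G} (hx : orderOf x = p) :
    Nat.card (MulAction.orbitRel.Quotient (Subgroup.zpowers x) Ω) * p =
      Nat.card Ω + (p - 1) * Nat.card (MulAction.fixedBy Ω x) := by
  classical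
  haveI : Fact p.Prime := ⟨hp⟩
  let P := Subgroup.zpowers x
  haveI : Fintype P := Fintype.ofFinite _
  haveI : ∀ a : P, Fintype (MulAction.fixedBy Ω a) := fun _ => Fintype.ofFinite _
  haveI : Fintype (MulAction.orbitRel.Quotient P Ω) := Fintype.ofFinite _
  have h := MulAction.sum_card_fixedBy_eq_card_orbits_mul_card_group P Ω
  have hP : Nat.card P = p := by rw [Nat.card_zpowers, hx]
  rw [← Nat.card_eq_fintype_card, ← Nat.card_eq_fintype_card, hP] at h
  rw [← h, ← Finset.add_sum_erase _ _ (Finset.mem_univ (1 : P))]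
  congr 1
  · rw [← Nat.card_eq_fintype_card]; simp
  · rw [Finset.sum_congr rfl (g := fun _ => Nat.card (MulAction.fixedBy Ω x))]
    · rw [Finset.sum_const, Finset.card_erase_of_mem (Finset.mem_univ _), Finset.card_univ,
        ← Nat.card_eq_fintype_card, hP, smul_eq_mul]
    · intro a ha
      have ha1 : a ≠ 1 := Finset.ne_of_mem_erase ha
      rw [← Nat.card_eq_fintype_card]
      have h1 : Subgroup.zpowers a = ⊤ := zpowers_eq_top_of_prime_card hP ha1
      have e : MulAction.fixedBy Ω a = MulAction.fixedBy Ω x := by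
        apply Set.Subset.antisymm
        · obtain ⟨n, hn⟩ : (⟨x, Subgroup.mem_zpowers x⟩ : P) ∈ Subgroup.zpowers a := h1 ▸ Subgroup.mem_top _
          intro w hw
          have := MulAction.fixedBy_subset_fixedBy_zpow Ω a n hw
          simp only at hn
          rw [hn] at this
          exact this
        · obtain ⟨a, n, rfl⟩ := a
          intro w hw
          exact MulAction.fixedBy_subset_fixedBy_zpow Ω x n hw
      rw [e]

theorem perm_bound [FiniteDimensional k U] {G Ω : Type*} [Group G] [Finite G] [Finite Ω] [MulAction G Ω]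
    {p : ℕ} (hp : p.Prime) {x : G} (hx : orderOf x = p) (g : End k U) (W : Ω → Submodule k U) (d : ℕ)
    (hd : ∀ ω, finrank k (W ω) ≤ d) (hW : ∀ ω, W (x • ω) ≤ (W ω).map g) (htop : ⨆ ω, W ω = ⊤) :
    p * finrank k (LinearMap.ker (g - 1)) ≤ d * (Nat.card Ω + (p - 1) * Nat.card (MulAction.fixedBy Ω x)) := by
  classical
  let Q := MulAction.orbitRel.Quotient (Subgroup.zpowers x) Ω
  haveI : Fintype Q := Fintype.ofFinite _
  let T : Submodule k U := Finset.univ.sup fun o : Q => W o.out
  let S := LinearMap.range (g - 1) ⊔ T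
  have step : ∀ ω, W ω ≤ S → W (x • ω) ≤ S := by
    intro ω h v hv
    obtain ⟨w, hw, rfl⟩ := hW ω hv
    have : g w = (g - 1) w + w := by simp
    rw [this]
    exact S.add_mem (Submodule.mem_sup_left ⟨w, rfl⟩) (h hw)
  have steps : ∀ (n : ℕ) ω, W ω ≤ S → W (x ^ n • ω) ≤ S := by
    intro n ω h
    induction n with
    | zero => simpa using h
    | succ n ih => rw [pow_succ', mul_smul]; exact step _ ih
  have hS : S = ⊤ := by
    rw [eq_top_iff, ← htop, iSup_le_iff]
    intro ω
    let o : Q := Quotient.mk _ ω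
    have h1 : (MulAction.orbitRel (Subgroup.zpowers x) Ω) ω o.out :=
      Setoid.symm' _ (Quotient.mk_out (s := MulAction.orbitRel (Subgroup.zpowers x) Ω) ω)
    obtain ⟨⟨a, ha⟩, h2⟩ := MulAction.orbitRel_apply.1 h1
    obtain ⟨n, rfl⟩ := (mem_powers_iff_mem_zpowers.2 ha)
    have h3 : x ^ n • o.out = ω := h2
    rw [← h3]
    exact steps n _ ((Finset.le_sup (f := fun o : Q => W o.out) (Finset.mem_univ o)).trans le_sup_right)
  have h1 := Submodule.finrank_add_le_finrank_add_finrank (LinearMap.range (g - 1)) T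
  have h2 : finrank k T ≤ _ := finrank_finset_sup_le (fun o : Q => W o.out) d (fun o => hd _) Finset.univ
  have h3 := LinearMap.finrank_range_add_finrank_ker (g - 1)
  have h4 : finrank k S = finrank k U := by rw [hS, finrank_top]
  rw [← orbits_card hp hx]
  rw [Finset.card_univ, ← Nat.card_eq_fintype_card] at h2
  have h5 : finrank k (LinearMap.ker (g - 1)) ≤ Nat.card Q * d := by
    change finrank k S ≤ _ at h1
    omega
  calc p * finrank k (LinearMap.ker (g - 1)) ≤ p * (Nat.card Q * d) := Nat.mul_le_mul_left _ h5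
    _ = _ := by ring

theorem weight_bound [FiniteDimensional k U] {ι Ω : Type*} [Finite Ω] (T : ι → End k U)
    (hT : ∀ i j, Commute (T i) (T j)) (χ : Ω → ι → k) (hχ : Function.Injective χ) (W : Ω → Submodule k U)
    (hW : ∀ ω, ∀ w ∈ W ω, ∀ i, T i w = χ ω i • w) (d : ℕ) (hd : ∀ ω, d ≤ finrank k (W ω)) :
    Nat.card Ω * d ≤ finrank k U := by
  classical
  haveI := Fintype.ofFinite Ω
  have h1 := Module.End.independent_iInf_maxGenEigenspace_of_forall_mapsTo T
    (fun i j φ => Module.End.mapsTo_maxGenEigenspace_of_comm (hT j i) φ)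
  have h1' : iSupIndep (fun ω => ⨅ i, (T i).maxGenEigenspace (χ ω i)) := h1.comp hχ
  have hle : ∀ ω, W ω ≤ ⨅ i, (T i).maxGenEigenspace (χ ω i) := fun ω => by
    intro w hw
    rw [Submodule.mem_iInf]
    intro i
    rw [Module.End.mem_maxGenEigenspace]
    exact ⟨1, by simp [hW ω w hw i]⟩
  have h2 : iSupIndep W := h1'.mono hle
  have h3 : ∀ s : Finset Ω, s.card * d ≤ finrank k ↥(s.sup W) := by
    intro s
    induction s using Finset.induction_on with
    | empty => simp
    | insert a s ha ih =>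
      rw [Finset.sup_insert, Finset.card_insert_of_notMem ha]
      have e := Submodule.finrank_sup_add_finrank_inf_eq (W a) (s.sup W)
      have hdis : Disjoint (W a) (s.sup W) := (h2 a).mono_right (Finset.sup_le fun b hb =>
        le_iSup₂_of_le (f := fun j (_ : j ≠ a) => W j) b (fun h => ha (h ▸ hb)) le_rfl)
      rw [hdis.eq_bot, finrank_bot] at e
      have := hd a
      nlinarith
  have h4 := h3 Finset.univ
  rw [Finset.card_univ, ← Nat.card_eq_fintype_card] at h4
  exact h4.trans (Submodule.finrank_le _)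

theorem end_bound [FiniteDimensional k U] (g g' : End k U) (h1 : g * g' = 1) (h2 : g' * g = 1) (hg : g ≠ 1)
    (τ : End k (End k U)) (hτ : ∀ φ, τ φ = g * φ * g') :
    finrank k (LinearMap.ker (g - 1)) ^ 2 < finrank k (LinearMap.ker (τ - 1)) := by
  let A := LinearMap.range (g - 1)
  let C := LinearMap.ker (g - 1)
  let Φ : ((U ⧸ A) →ₗ[k] C) →ₗ[k] End k U :=
    (LinearMap.llcomp k U C U C.subtype) ∘ₗ (LinearMap.lcomp k C A.mkQ)
  have hΦ : ∀ ψ u, Φ ψ u = (ψ (A.mkQ u) : U) := fun _ _ => rfl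
  have hinj : Function.Injective Φ := by
    rw [injective_iff_map_eq_zero]
    intro ψ hψ
    ext u
    have := congrArg (fun f : End k U => f u) hψ
    simpa [hΦ] using this
  have hA : finrank k (U ⧸ A) = finrank k C := by
    have := Submodule.finrank_quotient_add_finrank A
    have := LinearMap.finrank_range_add_finrank_ker (g - 1)
    change finrank k A + finrank k C = _ at this
    omega
  have hr : finrank k (LinearMap.range Φ) = finrank k C ^ 2 := by
    rw [LinearMap.finrank_range_of_inj hinj, Module.finrank_linearMap, hA, sq]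
  rw [← hr]
  apply Submodule.finrank_lt_finrank_of_lt
  refine lt_of_le_of_ne ?_ ?_
  · rintro _ ⟨ψ, rfl⟩
    rw [LinearMap.mem_ker, LinearMap.sub_apply, hτ, Module.End.one_apply, sub_eq_zero]
    ext u
    have e1 : A.mkQ (g' u) = A.mkQ u := by
      rw [← sub_eq_zero, ← map_sub, Submodule.mkQ_apply, Submodule.Quotient.mk_eq_zero]
      refine ⟨-g' u, ?_⟩
      have : g (g' u) = u := by rw [← Module.End.mul_apply, h1]; rfl
      simp [this]; abel
    have e2 : ∀ c : C, g c = c := fun c => by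
      have := c.2
      rw [LinearMap.mem_ker, LinearMap.sub_apply, sub_eq_zero] at this
      exact this
    rw [Module.End.mul_apply, Module.End.mul_apply, hΦ, hΦ, e1, e2]
  · intro h
    have : (1 : End k U) ∈ LinearMap.range Φ := by
      rw [h, LinearMap.mem_ker, LinearMap.sub_apply, hτ, mul_one, h1]; simp
    obtain ⟨ψ, hψ⟩ := this
    apply hg
    ext u
    have e := hΦ ψ u
    rw [hψ] at e
    have := (ψ (A.mkQ u)).2
    rw [← e, LinearMap.mem_ker, LinearMap.sub_apply, sub_eq_zero] at this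
    exact this

/-- Common eigenvector of a commuting family. -/
theorem common [FiniteDimensional k U] [Nontrivial U] {ι : Type*} (f : ι → End k U)
    (hf : ∀ i j, Commute (f i) (f j)) (Q : ι → k → Prop)
    (h : ∀ i (Y : Submodule k U), Y ≠ ⊥ → (∀ u ∈ Y, f i u ∈ Y) → ∃ μ, Q i μ ∧ ∃ u ∈ Y, u ≠ 0 ∧ f i u = μ • u) :
    ∃ (χ : ι → k) (v : U), v ≠ 0 ∧ ∀ i, Q i (χ i) ∧ f i v = χ i • v := by
  let S : Set (Submodule k U) := {Y | Y ≠ ⊥ ∧ ∀ i, ∀ u ∈ Y, f i u ∈ Y}
  have hS : S.Nonempty := ⟨⊤, top_ne_bot, fun _ _ _ => trivial⟩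
  obtain ⟨Y, hY, hmin⟩ := (wellFounded_lt (α := Submodule k U)).has_min S hS
  have key : ∀ i, ∃ μ, Q i μ ∧ ∀ u ∈ Y, f i u = μ • u := by
    intro i
    obtain ⟨μ, hq, u, hu, hu0, e⟩ := h i Y hY.1 (hY.2 i)
    refine ⟨μ, hq, ?_⟩
    have hm : Y ⊓ (f i).eigenspace μ ∈ S := by
      refine ⟨fun h0 => hu0 ?_, fun j w hw => ⟨hY.2 j w hw.1, ?_⟩⟩
      · have : u ∈ Y ⊓ (f i).eigenspace μ := ⟨hu, Module.End.mem_eigenspace_iff.2 e⟩
        rw [h0] at this; exact this
      · have := Module.End.mem_eigenspace_iff.1 hw.2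
        refine Module.End.mem_eigenspace_iff.2 ?_
        rw [← Module.End.mul_apply, (hf i j).eq, Module.End.mul_apply, this, map_smul]
    have := eq_of_le_of_not_lt inf_le_left (hmin _ hm)
    intro w hw
    rw [← this] at hw
    exact Module.End.mem_eigenspace_iff.1 hw.2
  choose χ hχ using key
  obtain ⟨v, hv, hv0⟩ := (Submodule.ne_bot_iff Y).1 hY.1
  exact ⟨χ, v, hv0, fun i => ⟨(hχ i).1, (hχ i).2 v hv⟩⟩

theorem eig_closed [IsAlgClosed k] [FiniteDimensional k U] (f : End k U) (Y : Submodule k U) (h0 : Y ≠ ⊥)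
    (hY : ∀ u ∈ Y, f u ∈ Y) : ∃ μ : k, True ∧ ∃ u ∈ Y, u ≠ 0 ∧ f u = μ • u := by
  haveI : Nontrivial Y := Submodule.nontrivial_iff_ne_bot.2 h0
  obtain ⟨μ, hμ⟩ := Module.End.exists_eigenvalue (f.restrict hY)
  obtain ⟨u, hu⟩ := hμ.exists_hasEigenvector
  refine ⟨μ, trivial, u, u.2, fun h => hu.2 (Subtype.ext h), ?_⟩
  exact congrArg Subtype.val hu.apply_eq_smul

theorem eig_unip (f : End k U) {n : ℕ} (hn : (f - 1) ^ n = 0) (Y : Submodule k U) (h0 : Y ≠ ⊥)
    (hY : ∀ u ∈ Y, f u ∈ Y) : ∃ μ : k, μ = 1 ∧ ∃ u ∈ Y, u ≠ 0 ∧ f u = μ • u := by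
  refine ⟨1, rfl, ?_⟩
  by_contra hc
  push Not at hc
  obtain ⟨v, hv, hv0⟩ := (Submodule.ne_bot_iff Y).1 h0
  have : ∀ m : ℕ, ((f - 1) ^ m) v ∈ Y ∧ ((f - 1) ^ m) v ≠ 0 := by
    intro m
    induction m with
    | zero => simpa using ⟨hv, hv0⟩
    | succ m ih =>
      rw [pow_succ', Module.End.mul_apply, LinearMap.sub_apply, Module.End.one_apply]
      refine ⟨Y.sub_mem (hY _ ih.1) ih.1, fun h => hc _ ih.1 ih.2 ?_⟩
      rw [one_smul]; exact sub_eq_zero.1 h
  exact (this n).2 (by rw [hn]; rfl)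

/-- Kernel dimension is subadditive along an invariant subspace. -/
theorem ker_le_add [FiniteDimensional k U] (f : End k U) (W : Submodule k U) (f₁ : End k W) (f₂ : End k (U ⧸ W))
    (h₁ : ∀ w : W, (f₁ w : U) = f w) (h₂ : ∀ u, f₂ (W.mkQ u) = W.mkQ (f u)) :
    finrank k (LinearMap.ker f) ≤ finrank k (LinearMap.ker f₁) + finrank k (LinearMap.ker f₂) := by
  let φ : LinearMap.ker f →ₗ[k] U ⧸ W := W.mkQ ∘ₗ (LinearMap.ker f).subtype
  have h3 := LinearMap.finrank_range_add_finrank_ker φ
  have h4 : finrank k (LinearMap.range φ) ≤ finrank k (LinearMap.ker f₂) := by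
    apply Submodule.finrank_mono
    rintro _ ⟨u, rfl⟩
    have : f u = 0 := u.2
    change f₂ (W.mkQ u) = 0
    rw [h₂, this, map_zero]
  have h5 : finrank k (LinearMap.ker φ) ≤ finrank k (LinearMap.ker f₁) := by
    have e1 : finrank k (LinearMap.ker φ) = finrank k ((LinearMap.ker φ).map (LinearMap.ker f).subtype) :=
      (Submodule.finrank_map_subtype_eq _ _).symm
    have e2 : finrank k (LinearMap.ker f₁) = finrank k ((LinearMap.ker f₁).map W.subtype) :=
      (Submodule.finrank_map_subtype_eq _ _).symm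
    rw [e1, e2]
    apply Submodule.finrank_mono
    rintro _ ⟨u, hu, rfl⟩
    have hw : (u : U) ∈ W := (Submodule.Quotient.mk_eq_zero W).1 hu
    refine ⟨⟨u, hw⟩, ?_, rfl⟩
    apply Subtype.ext
    rw [h₁]; exact u.2
  omega

theorem ker_baseChange [FiniteDimensional k U] (K : Type*) [Field K] [Algebra k K] (f : End k U) :
    finrank k (LinearMap.ker f) ≤ finrank K (LinearMap.ker (f.baseChange K)) := by
  have hinj : Function.Injective ((LinearMap.ker f).subtype.baseChange K) :=
    Module.Flat.lTensor_preserves_injective_linearMap (M := K) _ (Submodule.injective_subtype _)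
  rw [← Module.finrank_baseChange (R := K), ← LinearMap.finrank_range_of_inj hinj]
  apply Submodule.finrank_mono
  rintro _ ⟨t, rfl⟩
  rw [LinearMap.mem_ker, ← LinearMap.comp_apply, ← LinearMap.baseChange_comp, LinearMap.comp_ker_subtype]
  simp

end Cfsg.Agent.H1.Flv
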