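import Cfsg.Agent.S0625
import Cfsg.Agent.H24.Base5
import Cfsg.Agent.H2.Product
import Cfsg.Agent.H9.PSolv

/-! Group theoretic part of the fixed space bound. -/

namespace Cfsg.Agent.H1.Flv

open Subgroup
open scoped commutatorElement Pointwise

variable {G : Type*} [Group G]

theorem conj_pow_eq {y t d : G} (h : y * t * y⁻¹ = t * d) (hc : y * d = d * y) (n : ℕ) :
    y ^ n * t * (y ^ n)⁻¹ = t * d ^ n := by
  induction n with
  | zero => simp
  | succ n ih =>
    have hc' : y * d ^ n * y⁻¹ = d ^ n := by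
      rw [((show Commute y d from hc).pow_right n).eq]; group
    calc y ^ (n + 1) * t * (y ^ (n + 1))⁻¹ = y * (y ^ n * t * (y ^ n)⁻¹) * y⁻¹ := by group
      _ = (y * t * y⁻¹) * (y * d ^ n * y⁻¹) := by rw [ih]; group
      _ = t * d ^ (n + 1) := by rw [h, hc']; group

theorem three_le [Finite G] (T : Subgroup G) [hT : T.Normal] (hc : ∀ a ∈ T, ∀ b ∈ T, a * b = b * a) {y : G} {p : ℕ}
    (hp : Odd p) (hy : y ^ p = 1) (hne : ¬ T ≤ centralizer {y}) :
    3 * Nat.card (T ⊓ centralizer {y} : Subgroup G) ≤ Nat.card T := by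
  set C := T ⊓ centralizer {y} with hC
  have h1 : (C.subgroupOf T).index * Nat.card C = Nat.card T := by
    rw [← (C.subgroupOf T).index_mul_card, Nat.card_congr (subgroupOfEquivOfLe (inf_le_left : C ≤ T)).toEquiv]
  have h0 : (C.subgroupOf T).index ≠ 0 := index_ne_zero_of_finite
  have h2 : (C.subgroupOf T).index ≠ 1 := by
    intro h
    rw [index_eq_one, subgroupOf_eq_top] at h
    exact hne (h.trans inf_le_right)
  have h3 : (C.subgroupOf T).index ≠ 2 := by
    intro h
    apply hne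
    intro t ht
    have hs : y * t * y⁻¹ ∈ T := hT.conj_mem t ht y
    have e1 : (⟨t⁻¹, T.inv_mem ht⟩ * ⟨_, hs⟩ : T) ∈ C.subgroupOf T := by
      rw [mul_mem_iff_of_index_two h]
      simp only [mem_subgroupOf, hC, mem_inf, mem_centralizer_singleton_iff, T.inv_mem_iff, ht, hs, true_and]
      constructor
      · intro e
        have : t * y = y * t := by
          calc t * y = t * (y * t⁻¹) * t := by group
            _ = y * t := by rw [← e]; group
        calc y * t * y⁻¹ * y = y * (t * y) * y⁻¹ := by group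
          _ = y * (y * t * y⁻¹) := by rw [this]; group
      · intro e
        have : y * t = t * y := by
          calc y * t = y⁻¹ * (y * (y * t * y⁻¹)) * y := by group
            _ = t * y := by rw [← e]; group
        calc t⁻¹ * y = t⁻¹ * (y * t) * t⁻¹ := by group
          _ = y * t⁻¹ := by rw [this]; group
    have e2 : (⟨t, ht⟩ : T) ^ 2 ∈ C.subgroupOf T := sq_mem_of_index_two h _
    set d := t⁻¹ * (y * t * y⁻¹) with hd
    have hdC : d ∈ C := e1
    have e3 : y * t * y⁻¹ = t * d := by rw [hd]; group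
    have e4 := conj_pow_eq e3 (mem_centralizer_singleton_iff.1 hdC.2).symm p
    rw [hy] at e4
    have e5 : d ^ p = 1 := by simpa using e4
    have e6 : t ^ 2 * y = y * t ^ 2 := mem_centralizer_singleton_iff.1 (show t ^ 2 ∈ C from e2).2
    have e7 : d ^ 2 = 1 := by
      have : t ^ 2 = t ^ 2 * d ^ 2 := by
        calc t ^ 2 = (t ^ 2 * y) * y⁻¹ := by group
          _ = (y * t * y⁻¹) * (y * t * y⁻¹) := by rw [e6, sq]; group
          _ = t * (d * t) * d := by rw [e3]; group
          _ = t ^ 2 * d ^ 2 := by rw [hc d hdC.1 t ht, sq, sq]; group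
      simpa using this
    obtain ⟨m, rfl⟩ := hp
    have e8 : d = 1 := by rw [pow_succ, pow_mul, e7] at e5; simpa using e5
    rw [e8, mul_one] at e3
    rw [mem_centralizer_singleton_iff]
    calc t * y = (y * t * y⁻¹) * y := by rw [e3]
      _ = y * t := by group
  rw [← h1]
  exact Nat.mul_le_mul_right _ (by omega)

theorem fp_coatom [Finite G] [Group.IsSolvable G] {x : G} {p : ℕ} (hp : Odd p) (hx : x ^ p = 1)
    (hn : normalClosure {x} = ⊤) {M : Subgroup G} (hM : IsCoatom M) :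
    3 * Nat.card {g : G | g⁻¹ * x * g ∈ M} ≤ Nat.card G := by
  classical
  have hex : ∃ i, derivedSeries G i ≤ M := by
    obtain ⟨n, h⟩ := Group.IsSolvable.solvable (G := G)
    exact ⟨n, h ▸ bot_le⟩
  have h0 : Nat.find hex ≠ 0 := by
    intro h
    have := Nat.find_spec hex
    rw [h] at this
    exact hM.1 (top_le_iff.1 this)
  obtain ⟨i, hi⟩ := Nat.exists_eq_succ_of_ne_zero h0
  set T := derivedSeries G i with hT
  have hTM : ¬ T ≤ M := Nat.find_min hex (by omega)
  have hTT : ⁅T, T⁆ ≤ M := by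
    have := Nat.find_spec hex
    rw [hi] at this
    exact this
  have hsup : T ⊔ M = ⊤ := hM.2 _ (right_lt_sup.2 hTM)
  have hdec : ∀ g : G, ∃ t ∈ T, ∃ m ∈ M, t * m = g := fun g =>
    mem_sup_of_normal_left.1 (hsup ▸ mem_top g)
  set K := T ⊓ M with hK
  haveI hKn : K.Normal := ⟨fun a ha g => by
    obtain ⟨t, ht, m, hm, rfl⟩ := hdec g
    have h1 : m * a * m⁻¹ ∈ K := ⟨Normal.conj_mem inferInstance _ ha.1 _, M.mul_mem (M.mul_mem hm ha.2) (M.inv_mem hm)⟩
    refine ⟨Normal.conj_mem inferInstance _ ha.1 _, ?_⟩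
    have h2 := hTT (commutator_mem_commutator ht h1.1)
    have : t * m * a * (t * m)⁻¹ = ⁅t, m * a * m⁻¹⁆ * (m * a * m⁻¹) := by rw [commutatorElement_def]; group
    rw [this]
    exact M.mul_mem h2 h1.2⟩
  by_cases hS : ∃ g₀ : G, g₀⁻¹ * x * g₀ ∈ M
  swap
  · have : {g : G | g⁻¹ * x * g ∈ M} = ∅ := Set.eq_empty_of_forall_notMem fun g hg => hS ⟨g, hg⟩
    rw [this]; simp
  obtain ⟨g₀, hy⟩ := hS
  set y := g₀⁻¹ * x * g₀ with hydef
  let π := QuotientGroup.mk' K
  let Cb := T.map π ⊓ centralizer {π y}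
  let C := Cb.comap π
  have hCT : C ≤ T := fun c hc => by
    have : π c ∈ T.map π := hc.1
    rwa [← mem_comap, comap_map_eq_self (by rw [QuotientGroup.ker_mk']; exact inf_le_left)] at this
  have hmemC : ∀ t ∈ T, (t ∈ C ↔ t⁻¹ * y * t ∈ M) := by
    intro t ht
    have e : t ∈ C ↔ π t * π y = π y * π t := by
      change π t ∈ T.map π ⊓ centralizer {π y} ↔ _
      rw [mem_inf, mem_centralizer_singleton_iff]
      exact and_iff_right (mem_map_of_mem π ht)
    rw [e, ← map_mul, ← map_mul, QuotientGroup.mk'_apply, QuotientGroup.mk'_apply, QuotientGroup.eq, mem_inf]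
    have e1 : (t * y)⁻¹ * (y * t) = y⁻¹ * (t⁻¹ * y * t) := by group
    have e2 : (t * y)⁻¹ * (y * t) = y⁻¹ * t⁻¹ * y⁻¹⁻¹ * t := by group
    constructor
    · intro h
      rw [e1] at h
      exact (M.mul_mem_cancel_left (M.inv_mem hy)).1 h.2
    · intro h
      exact ⟨e2 ▸ T.mul_mem (Normal.conj_mem inferInstance _ (T.inv_mem ht) _) ht,
        e1 ▸ M.mul_mem (M.inv_mem hy) h⟩
  have hne : ¬ T.map π ≤ centralizer {π y} := by
    intro h
    apply hM.1
    rw [eq_top_iff, ← hn]
    refine (closure_le _).2 fun a ha => ?_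
    obtain ⟨b, hb, hg⟩ := Group.mem_conjugatesOfSet_iff.1 ha
    obtain ⟨g, hg⟩ := isConj_iff.1 hg
    rw [Set.mem_singleton_iff.1 hb] at hg
    obtain ⟨t, ht, m, hm, e⟩ := hdec (g₀⁻¹ * g⁻¹)
    have h1 := (hmemC t ht).1 ⟨mem_map_of_mem π ht, h (mem_map_of_mem π ht)⟩
    have : a = m⁻¹ * (t⁻¹ * y * t) * m := by
      have e' : g = (g₀ * (t * m))⁻¹ := by rw [e]; group
      rw [← hg, hydef, e']; group
    rw [this]
    exact M.mul_mem (M.mul_mem (M.inv_mem hm) h1) hm
  have h3 := three_le (T.map π) (p := p) (y := π y) (by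
      rintro _ ⟨a, ha, rfl⟩ _ ⟨b, hb, rfl⟩
      rw [← map_mul, ← map_mul, QuotientGroup.mk'_apply, QuotientGroup.mk'_apply, QuotientGroup.eq]
      have e : (a * b)⁻¹ * (b * a) = ⁅b⁻¹, a⁻¹⁆ := by rw [commutatorElement_def]; group
      rw [e]
      have := commutator_mem_commutator (T.inv_mem hb) (T.inv_mem ha)
      exact ⟨commutator_le_left _ _ this, hTT this⟩) hp
    (by rw [← map_pow, hydef, ← inv_inv g₀, inv_inv g₀⁻¹, conj_pow, hx]; simp) hne
  have c1 : Nat.card C = Nat.card K * Nat.card Cb := QuotientGroup.card_preimage_mk K (Cb : Set (G ⧸ K))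
  have c2 : Nat.card T = Nat.card K * Nat.card (T.map π) := by
    conv_lhs => rw [← comap_map_eq_self (f := π) (H := T) (by rw [QuotientGroup.ker_mk']; exact inf_le_left)]
    exact QuotientGroup.card_preimage_mk K (T.map π : Set (G ⧸ K))
  have c3 := H2.card_mul_set C M
  have c4 := H2.card_mul_set T M
  have e1 : C ⊓ M = K := by
    refine le_antisymm (inf_le_inf_right _ hCT) fun a ha => ⟨(hmemC a ha.1).2 ?_, ha.2⟩
    exact M.mul_mem (M.mul_mem (M.inv_mem ha.2) hy) ha.2
  have e2 : ((T : Set G) * (M : Set G)) = Set.univ := by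
    rw [← normal_mul, hsup]; rfl
  rw [e1] at c3
  rw [e2, ← hK, Nat.card_univ] at c4
  have c5 : Nat.card {g : G | g⁻¹ * x * g ∈ M} ≤ Nat.card ((C : Set G) * (M : Set G) : Set G) := by
    refine Nat.card_le_card_of_injective (fun g => ⟨g₀⁻¹ * g.1, ?_⟩) ?_
    · obtain ⟨t, ht, m, hm, e⟩ := hdec (g₀⁻¹ * g.1)
      refine ⟨t, (hmemC t ht).2 ?_, m, hm, e⟩
      have h1 : g.1⁻¹ * x * g.1 ∈ M := g.2
      have e' : t = g₀⁻¹ * g.1 * m⁻¹ := by rw [← e]; group
      have : t⁻¹ * y * t = m * (g.1⁻¹ * x * g.1) * m⁻¹ := by rw [e', hydef]; group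
      rw [this]
      exact M.mul_mem (M.mul_mem hm h1) (M.inv_mem hm)
    · intro a b h
      exact Subtype.ext (mul_left_cancel (congrArg Subtype.val h))
  have hKpos : 0 < Nat.card K := Nat.card_pos
  change 3 * Nat.card Cb ≤ _ at h3
  have : 3 * Nat.card ((C : Set G) * (M : Set G) : Set G) * Nat.card K ≤ Nat.card G * Nat.card K := by
    rw [mul_assoc, c3, c4, c1, c2]
    calc 3 * (Nat.card K * Nat.card Cb * Nat.card M) = Nat.card K * (3 * Nat.card Cb) * Nat.card M := by ring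
      _ ≤ _ := by gcongr
  have := Nat.le_of_mul_le_mul_right this hKpos
  omega

theorem fp [Finite G] [Group.IsSolvable G] {x : G} {p : ℕ} (hp : Odd p) (hx : x ^ p = 1)
    (hn : normalClosure {x} = ⊤) {H : Subgroup G} (hH : H ≠ ⊤) :
    3 * Nat.card (MulAction.fixedBy (G ⧸ H) x) ≤ Nat.card (G ⧸ H) := by
  obtain ⟨M, hM, hHM⟩ := (eq_top_or_exists_le_coatom H).resolve_left hH
  have h1 := fp_coatom hp hx hn hM
  have h2 := QuotientGroup.card_preimage_mk H (MulAction.fixedBy (G ⧸ H) x)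
  have h3 : Nat.card (QuotientGroup.mk ⁻¹' MulAction.fixedBy (G ⧸ H) x) ≤ Nat.card {g : G | g⁻¹ * x * g ∈ M} := by
    apply Nat.card_mono (Set.toFinite _)
    intro g hg
    have : ((x * g : G) : G ⧸ H) = g := hg
    rw [eq_comm, QuotientGroup.eq, ← mul_assoc] at this
    exact hHM this
  have h4 := card_eq_card_quotient_mul_card_subgroup H
  have hpos : 0 < Nat.card H := Nat.card_pos
  refine Nat.le_of_mul_le_mul_right ?_ hpos
  rw [← h4]
  nlinarith

end Cfsg.Agent.H1.Flv
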