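import Cfsg.Agent.H1.Flv1
import Cfsg.Agent.H1.Flv2

/-! Minimal non-central normal subgroups. -/

namespace Cfsg.Agent.H1.Flv

open Subgroup
open scoped commutatorElement Pointwise

variable {G : Type*} [Group G]

theorem quad_central [Finite G] [Group.IsSolvable G] {E : Subgroup G} (hE : H2.IsMinNormal E) {y : G} {p : ℕ}
    (hp : p.Prime) (h5 : 5 ≤ p) (hy : y ^ p = 1) (hq : ∀ a ∈ E, a⁻¹ * (y * a * y⁻¹) ∈ centralizer {y}) :
    E ≤ centralizer {y} := by
  haveI := hE.normal
  haveI : Fact p.Prime := ⟨hp⟩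
  obtain ⟨hc, q, hq', hEq⟩ := hE.exists_prime_of_isSolvable inferInstance
  have key : ∀ a ∈ E, ∀ n : ℕ, y ^ n * a * (y ^ n)⁻¹ = a * (a⁻¹ * (y * a * y⁻¹)) ^ n := fun a ha n =>
    conj_pow_eq (by group) (mem_centralizer_singleton_iff.1 (hq a ha)).symm n
  by_cases hqp : q = p
  · subst hqp
    have hst := (Cfsg.Agent.S0625.result h5 (H9.isPSolvable_of_isSolvable (inferInstance : Group.IsSolvable G))).1
      E ⟨hc, hEq⟩ y (by
        rw [commutator_eq_bot_iff_le_centralizer, commutator_le]
        rintro a ha _ ⟨n, rfl⟩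
        have hfin : ∃ m : ℕ, y ^ m = y ^ n := mem_powers_iff_mem_zpowers.2 (zpow_mem_zpowers y n)
        obtain ⟨m, hm⟩ := hfin
        simp only at hm ⊢
        rw [← hm]
        have h1 := key a⁻¹ (E.inv_mem ha) m
        have : ⁅a, y ^ m⁆ = (a⁻¹⁻¹ * (y * a⁻¹ * y⁻¹)) ^ m := by
          rw [commutatorElement_def, mul_assoc, mul_assoc, ← mul_assoc (y ^ m), h1]; group
        rw [this]
        refine pow_mem ?_ _
        rw [zpowers_eq_closure, centralizer_closure]
        exact hq _ (E.inv_mem ha))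
    let D := (pCore q (G ⧸ centralizer (E : Set G))).comap (QuotientGroup.mk' _)
    have h1 : E ⊓ centralizer (D : Set G) ≠ ⊥ :=
      H24.inf_centralizer_ne_bot_of_pGrpMod (p := q) (H2.isPGroup_of_forall_pow_eq_one hEq) (fun g hg => by
        obtain ⟨n, hn⟩ := H24.isPGroup_pCore q _ ⟨_, hg⟩
        refine ⟨n, (QuotientGroup.eq_one_iff _).1 ?_⟩
        have := congrArg Subtype.val hn
        simpa using this) (H2.le_normalizer_of_normal' E D) hE.ne_bot
    have h2 := hE.le_of_inf_ne_bot _ h1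
    intro a ha
    rw [mem_centralizer_singleton_iff]
    exact (h2 ha y hst).symm
  · intro a ha
    have h1 := key a ha p
    rw [hy] at h1
    set d := a⁻¹ * (y * a * y⁻¹) with hd
    have e1 : d ^ p = 1 := by simpa using h1
    have e2 : d ^ q = 1 := hEq _ (E.mul_mem (E.inv_mem ha) (hE.normal.conj_mem a ha y))
    have e3 : d = 1 := by
      rw [← orderOf_eq_one_iff]
      exact Nat.eq_one_of_dvd_coprimes ((Nat.coprime_primes hq' hp).2 hqp) (orderOf_dvd_of_pow_eq_one e2)
        (orderOf_dvd_of_pow_eq_one e1)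
    rw [mem_centralizer_singleton_iff]
    calc a * y = a * d * y := by rw [e3, mul_one]
      _ = y * a := by rw [hd]; group

structure MinNC (N : Subgroup G) : Prop where
  normal : N.Normal
  nc : ¬ N ≤ center G
  min : ∀ M : Subgroup G, M.Normal → M ≤ N → M ≤ center G ∨ M = N

theorem exists_minNC [Finite G] (h : center G ≠ ⊤) : ∃ N : Subgroup G, MinNC N := by
  obtain ⟨N, hN, hmin⟩ := (wellFounded_lt (α := Subgroup G)).has_min {N | N.Normal ∧ ¬ N ≤ center G}
    ⟨⊤, inferInstance, fun e => h (top_le_iff.1 e)⟩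
  refine ⟨N, hN.1, hN.2, fun M hM hle => ?_⟩
  by_contra hc
  push Not at hc
  exact hmin M ⟨hM, hc.1⟩ (lt_of_le_of_ne hle hc.2)

namespace MinNC

variable {N : Subgroup G}

theorem comm [Group.IsSolvable G] (h : MinNC N) {a b : G} (ha : a ∈ N) (hb : b ∈ N) : ⁅a, b⁆ ∈ center G := by
  haveI := h.normal
  have hne : N ≠ ⊥ := fun e => h.nc (e ▸ bot_le)
  have := (h.min ⁅N, N⁆ inferInstance (commutator_le_left _ _)).resolve_right
    (IsSolvable.commutator_lt_of_ne_bot hne).ne
  exact this (commutator_mem_commutator ha hb)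

theorem nondeg (h : MinNC N) (hna : ¬ N ≤ centralizer (N : Set G)) {d : G} (hd : d ∈ N)
    (hc : N.map (QuotientGroup.mk' (center G)) ≤ (centralizer {d}).map (QuotientGroup.mk' (center G))) :
    d ∈ center G := by
  haveI := h.normal
  have h1 := (h.min (N ⊓ centralizer (N : Set G)) inferInstance inf_le_left).resolve_right
    (fun e => hna (e.ge.trans inf_le_right))
  refine h1 ⟨hd, fun m hm => ?_⟩
  obtain ⟨b, hb, e⟩ := hc (mem_map_of_mem _ hm)
  rw [QuotientGroup.mk'_apply, QuotientGroup.mk'_apply, QuotientGroup.eq] at e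
  have hb' := mem_centralizer_singleton_iff.1 hb
  have := mem_center_iff.1 e d
  calc m * d = b * (b⁻¹ * m * d) := by group
    _ = b * d * (b⁻¹ * m) := by rw [← this]; group
    _ = d * m := by rw [hb']; group

theorem minNormal (h : MinNC N) : H2.IsMinNormal (N.map (QuotientGroup.mk' (center G))) := by
  haveI := h.normal
  refine ⟨inferInstance, fun e => h.nc ?_, fun K hK hle => ?_⟩
  · rwa [Subgroup.map_eq_bot_iff, QuotientGroup.ker_mk'] at e
  · rcases h.min (N ⊓ K.comap (QuotientGroup.mk' (center G))) inferInstance inf_le_left with h1 | h1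
    · left
      rw [eq_bot_iff]
      intro a ha
      obtain ⟨b, hb, rfl⟩ := hle ha
      exact (QuotientGroup.eq_one_iff _).2 (h1 ⟨hb, ha⟩)
    · right
      exact le_antisymm hle (map_le_iff_le_comap.2 (h1 ▸ inf_le_right))

theorem index [Finite G] [Group.IsSolvable G] (h : MinNC N) (hna : ¬ N ≤ centralizer (N : Set G)) {x : G} {p : ℕ}
    (hp : p.Prime) (h5 : 5 ≤ p) (hx : x ^ p = 1) (hn : normalClosure {x} = ⊤) {o f : ℕ}
    (hf : f = Nat.card (N.map (QuotientGroup.mk' (center G)) ⊓ centralizer {QuotientGroup.mk' (center G) x} :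
      Subgroup (G ⧸ center G)))
    (ho : o * p = Nat.card (N.map (QuotientGroup.mk' (center G))) + (p - 1) * f) :
    4 * (p - 1) * f ≤ (p - 4) * Nat.card (N.map (QuotientGroup.mk' (center G))) := by
  haveI := h.normal
  set π := QuotientGroup.mk' (center G) with hπ
  set E := N.map π with hE
  set C := E ⊓ centralizer {π x} with hC
  have hm : H2.IsMinNormal E := h.minNormal
  obtain ⟨hc, q, hq, hEq⟩ := hm.exists_prime_of_isSolvable inferInstance
  haveI : Fact q.Prime := ⟨hq⟩
  have hπ1 : ∀ a, π a = 1 ↔ a ∈ center G := fun a => QuotientGroup.eq_one_iff a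
  have hne : ¬ E ≤ centralizer {π x} := by
    intro hle
    obtain ⟨w, hw1⟩ := (ne_bot_iff_exists_ne_one).1 hm.ne_bot
    obtain ⟨w, d, hd, rfl⟩ := w
    have hcen : ∀ g : G, π g ∈ centralizer (E : Set (G ⧸ center G)) := by
      intro g
      have : normalClosure {x} ≤ (centralizer (E : Set (G ⧸ center G))).comap π :=
        normalClosure_le_normal (by
          rintro _ rfl
          exact fun a ha => mem_centralizer_singleton_iff.1 (hle ha))
      exact this (hn ▸ mem_top g)
    have hz : (zpowers (π d)).Normal := ⟨fun a ha g => by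
      obtain ⟨g, rfl⟩ := QuotientGroup.mk'_surjective _ g
      have := hcen g a ((zpowers_le.2 (mem_map_of_mem π hd) : _ ≤ E) ha)
      rw [← this, mul_inv_cancel_right]; exact ha⟩
    have e := hm.eq_of_le hz (zpowers_le.2 (mem_map_of_mem π hd)) (by
      rw [Ne, zpowers_eq_bot]; exact fun e => hw1 (Subtype.ext e))
    apply hw1
    apply Subtype.ext
    refine (hπ1 d).2 (h.nondeg hna hd ?_)
    rw [← hπ, ← hE, ← e, zpowers_le]
    exact mem_map_of_mem π (mem_centralizer_singleton_iff.2 rfl)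
  set i := (C.subgroupOf E).index with hi
  have h1 : i * f = Nat.card E := by
    rw [hf, ← (C.subgroupOf E).index_mul_card, Nat.card_congr (subgroupOfEquivOfLe (inf_le_left : C ≤ E)).toEquiv]
  obtain ⟨k, hk⟩ := (H2.isPGroup_of_forall_pow_eq_one hEq).index (C.subgroupOf E)
  rw [← hi] at hk
  have k0 : k ≠ 0 := by
    rintro rfl
    rw [pow_zero, hi, index_eq_one, subgroupOf_eq_top] at hk
    exact hne (hk.trans inf_le_right)
  have k1 : k ≠ 1 := by
    rintro rfl
    rw [pow_one] at hk
    apply hne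
    refine quad_central hm hp h5 (by rw [← map_pow, hx, map_one]) ?_
    rintro _ ⟨a, ha, rfl⟩
    by_contra hnot
    set d := a⁻¹ * (x * a * x⁻¹) with hd
    have hdN : d ∈ N := N.mul_mem (N.inv_mem ha) (h.normal.conj_mem a ha x)
    have hπd : π d = (π a)⁻¹ * (π x * π a * (π x)⁻¹) := by simp [hd]
    rw [← hπd] at hnot
    let Y := (centralizer {d}).map π
    have hCY : C ≤ Y := by
      rintro _ ⟨⟨b, hb, rfl⟩, hb2⟩
      refine mem_map_of_mem π (mem_centralizer_singleton_iff.2 ?_)
      have z1 : b⁻¹ * (x⁻¹ * b * x) ∈ center G := by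
        rw [← hπ1]
        have := mem_centralizer_singleton_iff.1 hb2
        simp only [map_mul, map_inv]
        rw [mul_assoc (π x)⁻¹, this]; group
      have z2 := h.comm hb ha
      set z := b⁻¹ * (x⁻¹ * b * x) with hz
      set w := ⁅b, a⁆ with hw
      have a1 : b * a = w * (a * b) := by rw [hw, commutatorElement_def]; group
      have a2 : b * x = x * b * z := by rw [hz]; group
      have cz := mem_center_iff.1 z1
      have cw := mem_center_iff.1 z2
      have a3 : b * x⁻¹ = x⁻¹ * b * z⁻¹ := by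
        calc b * x⁻¹ = x⁻¹ * (x * b * z) * z⁻¹ * x⁻¹ := by group
          _ = x⁻¹ * b * (x * (z⁻¹ * x⁻¹)) := by rw [← a2]; group
          _ = _ := by rw [← mem_center_iff.1 (inv_mem z1) x⁻¹]; group
      have a4 : b * a⁻¹ = w⁻¹ * (a⁻¹ * b) := by
        calc b * a⁻¹ = a⁻¹ * w⁻¹ * (w * (a * b)) * a⁻¹ := by group
          _ = (a⁻¹ * w⁻¹) * b := by rw [← a1]; group
          _ = _ := by rw [mem_center_iff.1 (inv_mem z2) a⁻¹]; group
      calc b * d = (b * a⁻¹) * x * a * x⁻¹ := by rw [hd]; group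
        _ = w⁻¹ * a⁻¹ * (b * x) * a * x⁻¹ := by rw [a4]; group
        _ = w⁻¹ * a⁻¹ * x * b * (z * (a * x⁻¹)) := by rw [a2]; group
        _ = w⁻¹ * a⁻¹ * x * (b * a) * x⁻¹ * z := by rw [← cz]; group
        _ = w⁻¹ * ((a⁻¹ * x) * w) * a * (b * x⁻¹) * z := by rw [a1]; group
        _ = d * b := by rw [cw, a3, hd]; group
    have hlt : C.subgroupOf E < Y.subgroupOf E := by
      refine lt_of_le_of_ne (comap_mono hCY) fun e => hnot ?_
      have : (⟨π d, mem_map_of_mem π hdN⟩ : E) ∈ Y.subgroupOf E :=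
        mem_map_of_mem π (mem_centralizer_singleton_iff.2 rfl)
      rw [← e] at this
      exact this.2
    have hdiv := index_dvd_of_le hlt.le
    rw [← hi, hk] at hdiv
    rcases (Nat.dvd_prime hq).1 hdiv with e | e
    · rw [index_eq_one, subgroupOf_eq_top] at e
      apply hnot
      rw [(hπ1 d).2 (h.nondeg hna hdN e)]
      exact one_mem _
    · have := index_strictAnti hlt
      change (Y.subgroupOf E).index < i at this
      omega
  have hfpos : 0 < f := hf ▸ Nat.card_pos
  have hq2 : q ^ 2 ∣ i := hk ▸ pow_dvd_pow q (by omega)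
  have hipos : 0 < i := hk ▸ pow_pos hq.pos _
  have hq2' := Nat.le_of_dvd hipos hq2
  have hq3 := hq.two_le
  clear_value i
  suffices 4 * (p - 1) ≤ (p - 4) * i by
    rw [← h1, ← mul_assoc]; exact Nat.mul_le_mul_right _ this
  obtain ⟨s, rfl⟩ : ∃ s, p = s + 5 := ⟨p - 5, by omega⟩
  rw [show s + 5 - 1 = s + 4 by omega] at ho ⊢
  rw [show s + 5 - 4 = s + 1 by omega]
  by_cases hqp : q = s + 5
  · rw [hqp] at hq2'
    nlinarith
  · obtain ⟨j, rfl⟩ : ∃ j, i = j + 1 := ⟨i - 1, by omega⟩
    have hd1 : (s + 5) ∣ j * f := by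
      have : o * (s + 5) = j * f + (s + 5) * f := by rw [ho, ← h1]; ring
      exact (Nat.dvd_add_left (dvd_mul_right _ _)).1 (this ▸ dvd_mul_left _ _)
    have hd2 : (s + 5) ∣ j := by
      refine (hp.dvd_mul.1 hd1).resolve_right fun hdf => hqp ?_
      obtain ⟨a, ha⟩ := IsPGroup.iff_card.1 (H2.isPGroup_of_forall_pow_eq_one hEq)
      have : s + 5 ∣ q ^ a := by rw [← ha, ← h1]; exact hdf.mul_left _
      exact ((Nat.prime_dvd_prime_iff_eq hp hq).1 (hp.dvd_of_dvd_pow this)).symm
    have hj : 0 < j := by nlinarith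
    have hj2 := Nat.le_of_dvd hj hd2
    rcases Nat.eq_zero_or_pos s with rfl | hs
    · by_contra hlt
      have : j = 5 ∨ j = 10 := by omega
      have hq4 : q < 4 := by nlinarith
      rcases this with e | e <;> rw [e] at hq2 <;> interval_cases q <;> simp at hq2
    · have : s ≠ 1 := by rintro rfl; exact absurd hp (by norm_num)
      have : 2 ≤ s := by omega
      nlinarith

end MinNC

end Cfsg.Agent.H1.Flv
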