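import Cfsg.Agent.H1.Flv3

/-! The fixed space bound over an algebraically closed field. -/

namespace Cfsg.Agent.H1.Flv

open Subgroup Module
open scoped commutatorElement Pointwise

variable {G : Type*} [Group G] {k : Type*} [Field k] {V : Type*} [AddCommGroup V] [Module k V]

/-- No proper nonzero invariant subspace. -/
def Irr (ρ : Representation k G V) : Prop :=
  ∀ W : Submodule k V, (∀ g, ∀ w ∈ W, ρ g w ∈ W) → W = ⊥ ∨ W = ⊤

/-- Conjugation action on functions on a normal subgroup. -/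
@[reducible] def actN (k : Type*) (N : Subgroup G) [hN : N.Normal] : MulAction G (N → k) where
  smul g χ n := χ ⟨g⁻¹ * n * g, hN.conj_mem' _ n.2 g⟩
  one_smul χ := funext fun n => congrArg χ (Subtype.ext (by simp))
  mul_smul a b χ := funext fun n => congrArg χ (Subtype.ext (by simp [mul_assoc]))

/-- Weight space. -/
def wt (ρ : Representation k G V) (N : Subgroup G) (χ : N → k) : Submodule k V :=
  ⨅ n : N, Module.End.eigenspace (ρ n) (χ n)

theorem mem_wt {ρ : Representation k G V} {N : Subgroup G} {χ : N → k} {v : V} :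
    v ∈ wt ρ N χ ↔ ∀ n : N, ρ n v = χ n • v := by
  simp only [wt, Submodule.mem_iInf, Module.End.mem_eigenspace_iff]

theorem rho_mul (ρ : Representation k G V) (a b : G) (v : V) : ρ a (ρ b v) = ρ (a * b) v := by
  rw [map_mul]; rfl

section
variable (ρ : Representation k G V) (N : Subgroup G) [N.Normal]
attribute [local instance] actN

theorem apply_mem_wt (g : G) {χ : N → k} {v : V} (h : v ∈ wt ρ N χ) : ρ g v ∈ wt ρ N (g • χ) := by
  rw [mem_wt] at h ⊢
  intro n
  have := h ⟨g⁻¹ * n * g, Normal.conj_mem' inferInstance _ n.2 g⟩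
  rw [rho_mul, show (n : G) * g = g * (g⁻¹ * n * g) by group, ← rho_mul, this, map_smul]
  rfl

theorem wt_smul_le (g : G) (χ : N → k) : wt ρ N (g • χ) ≤ (wt ρ N χ).map (ρ g) := fun v hv =>
  ⟨ρ g⁻¹ v, by simpa using apply_mem_wt ρ N g⁻¹ hv, by simp [rho_mul]⟩

theorem finrank_wt_smul [FiniteDimensional k V] (g : G) (χ : N → k) :
    finrank k (wt ρ N (g • χ)) = finrank k (wt ρ N χ) := by
  have h : ∀ (g : G) (χ : N → k), finrank k (wt ρ N (g • χ)) ≤ finrank k (wt ρ N χ) := fun g χ =>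
    (Submodule.finrank_mono (wt_smul_le ρ N g χ)).trans (Submodule.finrank_map_le _ _)
  refine le_antisymm (h g χ) ?_
  have := h g⁻¹ (g • χ)
  rwa [inv_smul_smul] at this

theorem caseA [Finite G] [Group.IsSolvable G] [IsAlgClosed k] [FiniteDimensional k V] [Nontrivial V]
    (hi : Irr ρ) (hf : Function.Injective ρ) (hN : ¬ N ≤ center G) (hab : N ≤ centralizer (N : Set G))
    {x : G} {p : ℕ} (hp : p.Prime) (h5 : 5 ≤ p) (hx : orderOf x = p) (hn : normalClosure {x} = ⊤) :
    2 * finrank k (LinearMap.ker (ρ x - 1)) < finrank k V := by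
  have hT : ∀ i j : N, Commute (ρ i) (ρ j) := fun i j => by
    rw [Commute, SemiconjBy, ← map_mul, ← map_mul, hab j.2 i i.2]
  obtain ⟨χ₀, v, hv0, hv⟩ := common (fun n : N => ρ n) hT (fun _ _ => True) fun i Y => eig_closed _ Y
  have hv' : v ∈ wt ρ N χ₀ := mem_wt.2 fun n => (hv n).2
  let H := MulAction.stabilizer G χ₀
  have hH : H ≠ ⊤ := by
    intro h
    rcases hi (wt ρ N χ₀) (fun g w hw => by
      have := apply_mem_wt ρ N g hw
      rwa [show g • χ₀ = χ₀ from (h ▸ mem_top g : g ∈ H)] at this) with h1 | h1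
    · rw [h1] at hv'; exact hv0 hv'
    · refine hN fun n hn => mem_center_iff.2 fun g => hf ?_
      ext w
      have e := fun w => mem_wt.1 (h1 ▸ Submodule.mem_top : w ∈ wt ρ N χ₀) ⟨n, hn⟩
      rw [← rho_mul, ← rho_mul, e, e, map_smul]
  let χ := MulAction.ofQuotientStabilizer G χ₀
  let W : G ⧸ H → Submodule k V := fun ω => wt ρ N (χ ω)
  set d := finrank k (wt ρ N χ₀) with hd
  have hdim : ∀ ω, finrank k (W ω) = d := fun ω => by
    obtain ⟨g, rfl⟩ := QuotientGroup.mk_surjective ω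
    exact finrank_wt_smul ρ N g χ₀
  have hsm : ∀ (g : G) ω, χ (g • ω) = g • χ ω := MulAction.ofQuotientStabilizer_smul G χ₀
  have htop : ⨆ ω, W ω = ⊤ := by
    refine (hi _ fun g w hw => ?_).resolve_left fun h => hv0 ?_
    · refine (show ⨆ ω, W ω ≤ (⨆ ω, W ω).comap (ρ g) from iSup_le fun ω u hu => ?_) hw
      refine Submodule.mem_iSup_of_mem (g • ω) ?_
      change ρ g u ∈ wt ρ N (χ (g • ω))
      rw [hsm]; exact apply_mem_wt ρ N g hu
    · have : v ∈ ⨆ ω, W ω := Submodule.mem_iSup_of_mem ((1 : G) : G ⧸ H) (by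
        change v ∈ wt ρ N ((1 : G) • χ₀)
        rwa [one_smul])
      rwa [h] at this
  have h1 := perm_bound hp hx (ρ x) W d (fun ω => (hdim ω).le) (fun ω => by
    change wt ρ N (χ (x • ω)) ≤ _
    rw [hsm]; exact wt_smul_le ρ N x _) htop
  have h2 := weight_bound (fun n : N => ρ n) hT χ (MulAction.injective_ofQuotientStabilizer G χ₀) W
    (fun ω w hw => mem_wt.1 hw) d (fun ω => (hdim ω).ge)
  have h3 := fp (hp.odd_of_ne_two (by omega)) (hx ▸ pow_orderOf_eq_one x) hn hH
  have h4 : 0 < finrank k V := finrank_pos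
  obtain ⟨s, rfl⟩ : ∃ s, p = s + 5 := ⟨p - 5, by omega⟩
  rw [show s + 5 - 1 = s + 4 by omega] at h1
  set c := finrank k (LinearMap.ker (ρ x - 1))
  set f := Nat.card (MulAction.fixedBy (G ⧸ H) x)
  set n := Nat.card (G ⧸ H)
  by_contra hc
  push Not at hc
  have h6 : 3 * (d * f) ≤ n * d := by nlinarith
  nlinarith

end

theorem scalar [IsAlgClosed k] [FiniteDimensional k V] [Nontrivial V] {ρ : Representation k G V} (hi : Irr ρ) :
    ∃ c : G → k, ∀ z ∈ center G, ∀ v, ρ z v = c z • v := by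
  have : ∀ z : G, ∃ μ : k, z ∈ center G → ∀ v, ρ z v = μ • v := by
    intro z
    obtain ⟨μ, hμ⟩ := Module.End.exists_eigenvalue (ρ z)
    refine ⟨μ, fun hz v => ?_⟩
    have := (hi (Module.End.eigenspace (ρ z) μ) fun g w hw => by
      rw [Module.End.mem_eigenspace_iff] at hw ⊢
      rw [rho_mul, ← mem_center_iff.1 hz g, ← rho_mul, hw, map_smul]).resolve_left hμ
    exact Module.End.mem_eigenspace_iff.1 (this ▸ Submodule.mem_top)
  choose c hc using this
  exact ⟨c, hc⟩

theorem comm_mul_right {a b c : G} (h : ⁅a, c⁆ ∈ center G) : ⁅a, b * c⁆ = ⁅a, b⁆ * ⁅a, c⁆ := by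
  have := mem_center_iff.1 h b
  calc ⁅a, b * c⁆ = ⁅a, b⁆ * (b * ⁅a, c⁆) * b⁻¹ := by simp only [commutatorElement_def]; group
    _ = _ := by rw [this]; group

theorem comm_mul_left {a b c : G} (h : ⁅b, c⁆ ∈ center G) : ⁅a * b, c⁆ = ⁅a, c⁆ * ⁅b, c⁆ := by
  have := mem_center_iff.1 h
  calc ⁅a * b, c⁆ = (a * ⁅b, c⁆) * (c * a⁻¹ * c⁻¹) := by simp only [commutatorElement_def]; group
    _ = (a * (c * a⁻¹ * c⁻¹)) * ⁅b, c⁆ := by rw [this a, this]; group
    _ = _ := by simp only [commutatorElement_def]; group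

attribute [local instance] actN in
theorem caseB [Finite G] [Group.IsSolvable G] [IsAlgClosed k] [FiniteDimensional k V] [Nontrivial V]
    (ℓ : ℕ) [Fact ℓ.Prime] [CharP k ℓ] (ρ : Representation k G V)
    (hi : Irr ρ) (hf : Function.Injective ρ) {N : Subgroup G} (h : MinNC N) (hna : ¬ N ≤ centralizer (N : Set G))
    {x : G} {p : ℕ} (hp : p.Prime) (h5 : 5 ≤ p) (hx : orderOf x = p) (hn : normalClosure {x} = ⊤) :
    2 * finrank k (LinearMap.ker (ρ x - 1)) < finrank k V := by
  classical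
  haveI := h.normal
  haveI : Fintype N := Fintype.ofFinite _
  obtain ⟨c, hc⟩ := scalar hi
  obtain ⟨v₀, hv₀⟩ := exists_ne (0 : V)
  have cinj : ∀ a ∈ center G, ∀ b ∈ center G, c a = c b → a = b := fun a ha b hb e =>
    hf (LinearMap.ext fun v => by rw [hc a ha, hc b hb, e])
  have c1 : c 1 = 1 := smul_left_injective k hv₀ (by simpa using (hc 1 (one_mem _) v₀).symm)
  have cmul : ∀ a ∈ center G, ∀ b ∈ center G, c (a * b) = c a * c b := fun a ha b hb =>
    smul_left_injective k hv₀ (by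
      simp only
      rw [← hc _ (mul_mem ha hb), ← rho_mul, hc b hb, map_smul, hc a ha, smul_smul, mul_comm])
  have cpow : ∀ a ∈ center G, ∀ n : ℕ, c (a ^ n) = c a ^ n := fun a ha n => by
    induction n with
    | zero => simpa using c1
    | succ n ih => rw [pow_succ, cmul _ (pow_mem ha n) _ ha, ih, pow_succ]
  have cl : ∀ a ∈ center G, a ^ ℓ = 1 → a = 1 := fun a ha e => by
    refine cinj a ha 1 (one_mem _) ?_
    have := cpow a ha ℓ
    rw [e, c1] at this
    have h2 : (c a - 1) ^ ℓ = 0 := by rw [sub_pow_char, ← this]; simp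
    rw [c1]; exact sub_eq_zero.1 (pow_eq_zero_iff (Fact.out : ℓ.Prime).ne_zero |>.1 h2)
  set π := QuotientGroup.mk' (center G) with hπ
  have nd : ∀ d ∈ N, (∀ m ∈ N, ⁅m, d⁆ = 1) → d ∈ center G := fun d hd e =>
    h.nondeg hna hd (map_mono fun m hm => mem_centralizer_singleton_iff.2
      (commutatorElement_eq_one_iff_mul_comm.1 (e m hm)))
  have hNk : (Nat.card N : k) ≠ 0 := by
    intro e
    rw [CharP.cast_eq_zero_iff k ℓ] at e
    obtain ⟨a, ha⟩ := exists_prime_orderOf_dvd_card' ℓ e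
    have ha1 : (a : G) ^ ℓ = 1 := by rw [← ha]; exact congrArg Subtype.val (pow_orderOf_eq_one a)
    have : (a : G) = 1 := cl a (nd a a.2 fun m hm => cl _ (h.comm hm a.2) (by
      have : ∀ n : ℕ, ⁅m, (a : G) ^ n⁆ = ⁅m, (a : G)⁆ ^ n := fun n => by
        induction n with
        | zero => simp
        | succ n ih => rw [pow_succ, comm_mul_right (h.comm hm a.2), ih, pow_succ]
      rw [← this, ha1]; simp)) ha1
    rw [show a = 1 from Subtype.ext this, orderOf_one] at ha
    exact (Fact.out : ℓ.Prime).one_lt.ne ha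
  let τ : Representation k G (End k V) := ρ.linHom ρ
  have hτ : ∀ g φ, τ g φ = ρ g * φ * ρ g⁻¹ := fun g φ => rfl
  have hτc : ∀ z ∈ center G, ∀ φ, τ z φ = φ := fun z hz φ => by
    ext v
    rw [hτ, Module.End.mul_apply, Module.End.mul_apply, hc z hz, ← map_smul, ← hc z hz, rho_mul]; simp
  have hρc : ∀ z ∈ center G, ρ z = c z • (1 : End k V) := fun z hz => LinearMap.ext fun v => hc z hz v
  let χ : G → N → k := fun n m => c ⁅(m : G), n⁆
  have χπ : ∀ a b, π a = π b → χ a = χ b := fun a b e => by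
    rw [hπ, QuotientGroup.mk'_apply, QuotientGroup.mk'_apply, QuotientGroup.eq] at e
    funext m
    have h0 : ⁅(m : G), a⁻¹ * b⁆ = 1 := commutatorElement_eq_one_iff_mul_comm.2 (mem_center_iff.1 e m)
    have : ⁅(m : G), b⁆ = ⁅(m : G), a⁆ := by
      rw [show b = a * (a⁻¹ * b) by group, comm_mul_right (h0 ▸ one_mem _), h0, mul_one]
    simp only [χ, this]
  have χs : ∀ g, ∀ n ∈ N, χ (g * n * g⁻¹) = g • χ n := fun g n hn => by
    funext m
    change c _ = c ⁅g⁻¹ * m * g, n⁆
    have := mem_center_iff.1 (h.comm (h.normal.conj_mem' _ m.2 g) hn) g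
    congr 1
    calc ⁅(m : G), g * n * g⁻¹⁆ = (g * ⁅g⁻¹ * m * g, n⁆) * g⁻¹ := by simp only [commutatorElement_def]; group
      _ = _ := by rw [this]; group
  have mulw : ∀ a ∈ N, ∀ b ∈ N, ∀ φ ∈ wt τ N (χ b), ρ a * φ ∈ wt τ N (χ (a * b)) := fun a ha b hb φ hφ => by
    rw [mem_wt] at hφ ⊢
    intro m
    have e1 := hφ m
    rw [hτ] at e1 ⊢
    have e2 : ρ m * ρ a = c ⁅(m : G), a⁆ • (ρ a * ρ m) := by
      rw [← map_mul, ← map_mul, show (m : G) * a = ⁅(m : G), a⁆ * (a * m) by rw [commutatorElement_def]; group,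
        map_mul, hρc _ (h.comm m.2 ha), smul_mul_assoc, one_mul]
    rw [← mul_assoc, e2, smul_mul_assoc, smul_mul_assoc, mul_assoc (ρ a), mul_assoc (ρ a), e1, mul_smul_comm,
      smul_smul]
    simp only [χ]
    rw [comm_mul_right (h.comm m.2 hb), cmul _ (h.comm m.2 ha) _ (h.comm m.2 hb)]
  set d := finrank k (wt τ N (χ 1)) with hd
  have dle : ∀ a ∈ N, ∀ b ∈ N, finrank k (wt τ N (χ (a * b))) ≤ finrank k (wt τ N (χ b)) := fun a ha b hb => by
    refine le_trans (Submodule.finrank_mono (fun φ hφ => ?_))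
      (Submodule.finrank_map_le (LinearMap.mulLeft k (ρ a)) (wt τ N (χ b)))
    refine ⟨ρ a⁻¹ * φ, by simpa using mulw _ (N.inv_mem ha) _ (N.mul_mem ha hb) φ hφ, ?_⟩
    rw [LinearMap.mulLeft_apply, ← mul_assoc, ← map_mul]; simp
  have hdim : ∀ a ∈ N, finrank k (wt τ N (χ a)) = d := fun a ha =>
    le_antisymm (by have := dle a ha 1 N.one_mem; rwa [mul_one] at this)
      (by have := dle _ (N.inv_mem ha) a ha; rwa [inv_mul_cancel] at this)
  set E := N.map π with hE
  have hl : ∀ ω : E, ∃ n ∈ N, π n = ω := fun ω => ω.2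
  choose l hlN hlπ using hl
  let W : E → Submodule k (End k V) := fun ω => wt τ N (χ (l ω))
  have hinj : Function.Injective fun ω => χ (l ω) := fun a b e => by
    apply Subtype.ext
    rw [← hlπ, ← hlπ, hπ, QuotientGroup.mk'_apply, QuotientGroup.mk'_apply, QuotientGroup.eq]
    refine nd _ (N.mul_mem (N.inv_mem (hlN a)) (hlN b)) fun m hm => ?_
    have e1 : ⁅m, l a⁆ = ⁅m, l b⁆ := cinj _ (h.comm hm (hlN a)) _ (h.comm hm (hlN b)) (congrFun e ⟨m, hm⟩)
    have e2 := comm_mul_right (b := l a) (h.comm hm (N.mul_mem (N.inv_mem (hlN a)) (hlN b)))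
    rw [mul_inv_cancel_left, e1] at e2
    exact (left_eq_mul.1 e2)
  have hT : ∀ i j : N, Commute (τ i) (τ j) := fun i j => by
    rw [Commute, SemiconjBy, ← map_mul, ← map_mul]
    ext1 φ
    rw [show (i : G) * j = ⁅(i : G), (j : G)⁆ * (j * i) by rw [commutatorElement_def]; group, ← rho_mul,
      hτc _ (h.comm i.2 j.2)]
  have htop : ⨆ ω, W ω = ⊤ := by
    rw [eq_top_iff]
    intro φ _
    have av : ∀ ψ, ∑ m : N, τ m ψ ∈ wt τ N (χ 1) := fun ψ => mem_wt.2 fun n => by
      simp only [χ, commutatorElement_one_right, c1, one_smul, map_sum, rho_mul]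
      exact Fintype.sum_equiv (Equiv.mulLeft n) _ _ fun m => rfl
    have h1 : ∑ n : N, ρ n * ∑ m : N, τ m (ρ (n : G)⁻¹ * φ) ∈ ⨆ ω, W ω := by
      refine Submodule.sum_mem _ fun n _ => Submodule.mem_iSup_of_mem ⟨π n, mem_map_of_mem π n.2⟩ ?_
      have := mulw n n.2 1 N.one_mem _ (av (ρ (n : G)⁻¹ * φ))
      rw [mul_one, ← χπ _ _ (hlπ ⟨π n, mem_map_of_mem π n.2⟩)] at this
      exact this
    have h2 : ∀ m : N, ∑ n : N, ρ n * τ m (ρ (n : G)⁻¹ * φ) =
        if (m : G) ∈ center G then (Nat.card N : k) • φ else 0 := fun m => by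
      have e1 : ∀ n : N, ρ n * τ m (ρ (n : G)⁻¹ * φ) = c ⁅(n : G), (m : G)⁆ • τ m φ := fun n => by
        rw [hτ, hτ, ← mul_assoc, ← mul_assoc, ← mul_assoc, ← map_mul, ← map_mul,
          show (n : G) * m * (n : G)⁻¹ = ⁅(n : G), (m : G)⁆ * m by rw [commutatorElement_def]; group, map_mul,
          hρc _ (h.comm n.2 m.2)]
        simp
      simp only [e1, ← Finset.sum_smul]
      split_ifs with hm
      · rw [hτc _ hm]
        congr 1
        rw [Finset.sum_congr rfl (g := fun _ => (1 : k)) fun n _ => by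
          rw [commutatorElement_eq_one_iff_mul_comm.2 (mem_center_iff.1 hm n), c1]]
        simp
      · let f : N →* k :=
          { toFun := fun n => c ⁅(n : G), (m : G)⁆
            map_one' := by simpa using c1
            map_mul' := fun a b => by
              rw [coe_mul, comm_mul_left (h.comm b.2 m.2), cmul _ (h.comm a.2 m.2) _ (h.comm b.2 m.2)] }
        have : f ≠ 1 := fun e => hm (nd m m.2 fun a ha =>
          cinj _ (h.comm ha m.2) _ (one_mem _) (c1 ▸ DFunLike.congr_fun e ⟨a, ha⟩))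
        rw [show ∑ n : N, c ⁅(n : G), (m : G)⁆ = 0 from sum_hom_units_eq_zero f this, zero_smul]
    simp only [Finset.mul_sum] at h1
    rw [Finset.sum_comm, Finset.sum_congr rfl fun m _ => h2 m, ← Finset.sum_filter, Finset.sum_const,
      ← Nat.cast_smul_eq_nsmul k, smul_smul] at h1
    refine (Submodule.smul_mem_iff _ (mul_ne_zero ?_ hNk)).1 h1
    intro e
    apply hNk
    rw [CharP.cast_eq_zero_iff k ℓ] at e ⊢
    refine e.trans ?_
    rw [← Fintype.card_subtype, ← Nat.card_eq_fintype_card]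
    exact card_subgroup_dvd_card ((center G).subgroupOf N)
  have hxc : π x ≠ 1 := by
    intro e
    have hz : x ∈ center G := (QuotientGroup.eq_one_iff x).1 e
    apply h.nc
    rw [← top_le_iff] at hn
    exact le_top.trans (hn.trans (normalClosure_le_normal (by simpa using hz)))
  haveI : Fact p.Prime := ⟨hp⟩
  have hx1 : x ^ p = 1 := hx ▸ pow_orderOf_eq_one x
  haveI : Finite (ConjAct (G ⧸ center G)) := inferInstanceAs (Finite (G ⧸ center G))
  let y := ConjAct.toConjAct (π x)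
  have hy : orderOf y = p := by
    rw [MulEquiv.orderOf_eq]
    exact orderOf_eq_prime (by rw [← map_pow, hx1, map_one]) hxc
  have h1 := perm_bound hp hy (τ x) W d (fun ω => (hdim _ (hlN ω)).le) (fun ω => by
    change wt τ N (χ (l (y • ω))) ≤ _
    rw [χπ (l (y • ω)) (x * l ω * x⁻¹) (by rw [hlπ, map_mul, map_mul, hlπ, map_inv]; rfl), χs _ _ (hlN ω)]
    exact wt_smul_le τ N x _) htop
  have h2 := weight_bound (fun n : N => τ n) hT _ hinj W (fun ω w hw => mem_wt.1 hw) d
    (fun ω => (hdim _ (hlN ω)).ge)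
  have h3 := end_bound (ρ x) (ρ x⁻¹) (by rw [← map_mul]; simp) (by rw [← map_mul]; simp)
    (fun e => hxc (by rw [hf (e.trans (map_one ρ).symm), map_one])) (τ x) (hτ x)
  have h4 := h.index hna hp h5 hx1 hn (f := Nat.card (MulAction.fixedBy E y)) (by
    refine Nat.card_congr ⟨fun a => ⟨a.1.1, a.1.2, mem_centralizer_singleton_iff.2 ?_⟩,
      fun a => ⟨⟨a.1, a.2.1⟩, Subtype.ext ?_⟩, fun _ => rfl, fun _ => rfl⟩
    · have : π x * a.1.1 * (π x)⁻¹ = a.1.1 := congrArg Subtype.val a.2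
      exact (mul_inv_eq_iff_eq_mul.1 this).symm
    · change π x * a.1 * (π x)⁻¹ = a.1
      exact mul_inv_eq_iff_eq_mul.2 (mem_centralizer_singleton_iff.1 a.2.2).symm) (orbits_card hp hy)
  rw [Module.finrank_linearMap] at h2
  obtain ⟨s, rfl⟩ : ∃ s, p = s + 5 := ⟨p - 5, by omega⟩
  rw [show s + 5 - 1 = s + 4 by omega] at h1 h4
  rw [show s + 5 - 4 = s + 1 by omega] at h4
  change _ ≤ _ * Nat.card E at h4
  set cc := finrank k (LinearMap.ker (ρ x - 1))
  set f := Nat.card (MulAction.fixedBy E y)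
  set n := Nat.card E
  set K := finrank k (LinearMap.ker (τ x - 1))
  by_contra hcc
  push Not at hcc
  have h6 : finrank k V * finrank k V ≤ (2 * cc) * (2 * cc) := Nat.mul_le_mul hcc hcc
  have h7 : d * (4 * (s + 4) * f) ≤ d * ((s + 1) * n) := Nat.mul_le_mul_left _ h4
  have h8 : (s + 5) * (n * d + 4) ≤ (s + 5) * (4 * K) := Nat.mul_le_mul_left _ (by nlinarith)
  nlinarith

theorem main_irr [Finite G] [Group.IsSolvable G] [IsAlgClosed k] [FiniteDimensional k V] [Nontrivial V]
    (ℓ : ℕ) [Fact ℓ.Prime] [CharP k ℓ] (ρ : Representation k G V) (hi : Irr ρ) (hf : Function.Injective ρ)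
    {x : G} {p : ℕ} (hp : p.Prime) (h5 : 5 ≤ p) (hx : orderOf x = p) (hn : normalClosure {x} = ⊤) :
    2 * finrank k (LinearMap.ker (ρ x - 1)) < finrank k V := by
  by_cases hz : center G = ⊤
  · rcases hi (LinearMap.ker (ρ x - 1)) (fun g w hw => by
      rw [LinearMap.mem_ker, LinearMap.sub_apply, sub_eq_zero, Module.End.one_apply] at hw ⊢
      rw [rho_mul, mem_center_iff.1 (hz ▸ mem_top g) x, ← rho_mul, hw]) with h | h
    · rw [h, finrank_bot]; exact finrank_pos
    · rw [LinearMap.ker_eq_top, sub_eq_zero] at h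
      rw [hf (h.trans (map_one ρ).symm), orderOf_one] at hx
      omega
  obtain ⟨N, hN⟩ := exists_minNC hz
  haveI := hN.normal
  by_cases hab : N ≤ centralizer (N : Set G)
  · exact caseA ρ N hi hf hN.nc hab hp h5 hx hn
  · exact caseB ℓ ρ hi hf hN hab hp h5 hx hn

end Cfsg.Agent.H1.Flv
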