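import Cfsg.Agent.H1.Flv4

/-! The fixed space bound over any field of positive characteristic. -/

namespace Cfsg.Agent.H1.Flv

open Subgroup Module
open scoped commutatorElement Pointwise TensorProduct

universe v

variable {G : Type*} [Group G] [Finite G] [Group.IsSolvable G] {k : Type*} [Field k]

theorem main_closed [IsAlgClosed k] (ℓ : ℕ) [Fact ℓ.Prime] [CharP k ℓ] {x : G} {p : ℕ} (hp : p.Prime) (h5 : 5 ≤ p)
    (hx : x ^ p = 1) (hn : normalClosure {x} = ⊤) (M : Subgroup G) [Fintype M] (hM : (Nat.card M : k) ≠ 0) (n : ℕ) :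
    ∀ (V : Type v) [AddCommGroup V] [Module k V] [FiniteDimensional k V] [Nontrivial V]
      (ρ : Representation k G V), finrank k V = n → (∀ v, ∑ m : M, ρ m v = 0) →
      2 * finrank k (LinearMap.ker (ρ x - 1)) < finrank k V := by
  induction n using Nat.strongRecOn with | ind n ih => ?_
  intro V _ _ _ _ ρ hV hs
  by_cases hi : Irr ρ
  · let σ : Representation k (G ⧸ ρ.ker) V := QuotientGroup.lift ρ.ker ρ fun _ h => h
    have hσ : ∀ g : G, σ g = ρ g := fun _ => rfl
    haveI : Fact p.Prime := ⟨hp⟩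
    refine main_irr ℓ σ (fun W hW => hi W fun g => hW g) ?_ hp h5 (x := (x : G ⧸ ρ.ker)) ?_ ?_
    · rw [injective_iff_map_eq_one]
      intro a ha
      obtain ⟨a, rfl⟩ := QuotientGroup.mk_surjective a
      exact (QuotientGroup.eq_one_iff a).2 ha
    · refine orderOf_eq_prime (by rw [← QuotientGroup.mk_pow, hx]; rfl) fun e => ?_
      have h1 : normalClosure {x} ≤ ρ.ker := normalClosure_le_normal (by
        simpa using (QuotientGroup.eq_one_iff x).1 e)
      obtain ⟨v, hv⟩ := exists_ne (0 : V)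
      have := hs v
      rw [Finset.sum_congr rfl (g := fun _ => v) fun m _ => by
        rw [show ρ m = 1 from h1 (hn ▸ mem_top _)]; rfl, Finset.sum_const, Finset.card_univ,
        ← Nat.card_eq_fintype_card, ← Nat.cast_smul_eq_nsmul k] at this
      exact hv ((smul_eq_zero.1 this).resolve_left hM)
    · have := map_normalClosure {x} (QuotientGroup.mk' ρ.ker) (QuotientGroup.mk'_surjective _)
      rw [hn, Set.image_singleton, ← MonoidHom.range_eq_map,
        MonoidHom.range_eq_top.2 (QuotientGroup.mk'_surjective _)] at this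
      exact this.symm
  · unfold Irr at hi
    push Not at hi
    obtain ⟨W, hW, h0, h1⟩ := hi
    haveI : Nontrivial W := Submodule.nontrivial_iff_ne_bot.2 h0
    haveI : Nontrivial (V ⧸ W) := Submodule.Quotient.nontrivial_iff.2 h1
    have e := Submodule.finrank_quotient_add_finrank W
    have p1 : 0 < finrank k W := finrank_pos
    have p2 : 0 < finrank k (V ⧸ W) := finrank_pos
    have a1 := ih _ (by omega) W (ρ.subrepresentation W hW) rfl fun v => Subtype.ext (by
      rw [AddSubmonoidClass.coe_finset_sum]; exact hs v)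
    have a2 := ih _ (by omega) (V ⧸ W) (ρ.quotient W hW) rfl fun v => by
      obtain ⟨v, rfl⟩ := W.mkQ_surjective v
      have := congrArg W.mkQ (hs v)
      rw [map_sum, map_zero] at this
      exact this
    have a3 := ker_le_add (ρ x - 1) W (ρ.subrepresentation W hW x - 1) (ρ.quotient W hW x - 1)
      (fun w => rfl) (fun u => rfl)
    omega

theorem main (ℓ : ℕ) [Fact ℓ.Prime] [CharP k ℓ] {V : Type*} [AddCommGroup V] [Module k V] [FiniteDimensional k V]
    [Nontrivial V] (ρ : Representation k G V) {x : G} {p : ℕ} (hp : p.Prime) (h5 : 5 ≤ p)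
    (hx : x ^ p = 1) (hn : normalClosure {x} = ⊤) (M : Subgroup G) (hM : ¬ ℓ ∣ Nat.card M)
    (h0 : ∀ v, (∀ m ∈ M, ρ m v = v) → v = 0) :
    2 * finrank k (LinearMap.ker (ρ x - 1)) < finrank k V := by
  classical
  haveI : Fintype M := Fintype.ofFinite _
  let K := AlgebraicClosure k
  let σ : Representation K G (K ⊗[k] V) := (Module.End.baseChangeHom k K V).toMonoidHom.comp ρ
  have hσ : ∀ g, σ g = (ρ g).baseChange K := fun _ => rfl
  have hs : ∑ m : M, ρ m = 0 := by
    ext v
    rw [LinearMap.sum_apply]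
    refine h0 _ fun a ha => ?_
    simp only [map_sum, rho_mul]
    exact Fintype.sum_equiv (Equiv.mulLeft ⟨a, ha⟩) _ _ fun m => rfl
  have hd : finrank K (K ⊗[k] V) = finrank k V := Module.finrank_baseChange
  haveI : Nontrivial (K ⊗[k] V) := (finrank_pos_iff (R := K)).1 (by rw [hd]; exact finrank_pos)
  have h1 := main_closed ℓ hp h5 hx hn M (by rwa [Ne, CharP.cast_eq_zero_iff K ℓ]) _ (K ⊗[k] V) σ rfl fun v => by
    rw [← LinearMap.sum_apply]
    have := congrArg (Module.End.baseChangeHom k K V) hs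
    rw [map_sum, map_zero] at this
    exact congrArg (fun f : End K (K ⊗[k] V) => f v) this
  have h2 := ker_baseChange K (ρ x - 1)
  rw [LinearMap.baseChange_sub, LinearMap.baseChange_one, ← hσ] at h2
  omega

theorem main_faithful (ℓ : ℕ) [Fact ℓ.Prime] [CharP k ℓ] {V : Type*} [AddCommGroup V] [Module k V]
    [FiniteDimensional k V] [Nontrivial V] (ρ : Representation k G V) (hi : Irr ρ) (hf : Function.Injective ρ)
    {x : G} {p : ℕ} (hp : p.Prime) (h5 : 5 ≤ p) (hx : orderOf x = p) (hn : normalClosure {x} = ⊤) :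
    2 * finrank k (LinearMap.ker (ρ x - 1)) < finrank k V := by
  haveI : Nontrivial G := ⟨x, 1, by rintro rfl; rw [orderOf_one] at hx; omega⟩
  obtain ⟨M, hM⟩ := H2.exists_isMinNormal (G := G)
  obtain ⟨hc, q, hq, hMq⟩ := hM.exists_prime_of_isSolvable inferInstance
  have h0 : ∀ v, (∀ m ∈ M, ρ m v = v) → v = 0 := by
    intro v hv
    rcases hi (wt ρ M fun _ => 1) (fun g w hw => mem_wt.2 fun n => by
      have := mem_wt.1 hw ⟨g⁻¹ * n * g, hM.normal.conj_mem' _ n.2 g⟩
      rw [one_smul] at this ⊢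
      rw [rho_mul, show (n : G) * g = g * (g⁻¹ * n * g) by group, ← rho_mul, this]) with h | h
    · have : v ∈ wt ρ M fun _ => 1 := mem_wt.2 fun n => by rw [one_smul]; exact hv n n.2
      rwa [h] at this
    · refine absurd (eq_bot_iff.2 fun m hm => hf ?_) hM.ne_bot
      ext w
      simpa using mem_wt.1 (h ▸ Submodule.mem_top : w ∈ wt ρ M fun _ => 1) ⟨m, hm⟩
  refine main ℓ ρ hp h5 (hx ▸ pow_orderOf_eq_one x) hn M (fun hd => ?_) h0
  haveI : Fact q.Prime := ⟨hq⟩
  obtain ⟨a, ha⟩ := IsPGroup.iff_card.1 (H2.isPGroup_of_forall_pow_eq_one hMq)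
  have hl : ℓ.Prime := Fact.out
  obtain rfl : ℓ = q := (Nat.prime_dvd_prime_iff_eq hl hq).1 (hl.dvd_of_dvd_pow (ha ▸ hd))
  haveI : CharP (End k V) ℓ := charP_of_injective_algebraMap' k ℓ
  obtain ⟨χ, v, hv0, hv⟩ := common (fun n : M => ρ n) (fun i j => by
      rw [Commute, SemiconjBy, ← map_mul, ← map_mul, H2.mul_comm_of_mem i.2 j.2]) (fun _ μ => μ = 1)
    fun i Y => eig_unip (n := ℓ) _ (by
      rw [sub_pow_char_of_commute _ (Commute.one_right _), ← map_pow, hMq _ i.2]; simp) Y
  exact hv0 (h0 v fun m hm => by have := hv ⟨m, hm⟩; rw [this.2, this.1, one_smul])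

end Cfsg.Agent.H1.Flv
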