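import Cfsg.Agent.H1.Flv5
import Cfsg.Agent.H23.PSt1
import Cfsg.Agent.H10.Bender

/-! Generation of `AW` by two conjugates. -/

namespace Cfsg.Agent.H1.Flv

open Subgroup Module H24
open scoped commutatorElement Pointwise

variable {G : Type*} [Group G] [Finite G]

theorem card_ker_sq_lt {H : Type*} [Group H] [Finite H] [Group.IsSolvable H] {q : ℕ} [Fact q.Prime] {V : Type*}
    [AddCommGroup V] [Module (ZMod q) V] [Finite V] [Nontrivial V] (ρ : H →* End (ZMod q) V) {x a : H} {p : ℕ}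
    (hp : p.Prime) (h5 : 5 ≤ p) (hx : x ^ p = 1) (hn : normalClosure {x} = ⊤) (M : Subgroup H)
    (hM : ¬ q ∣ Nat.card M) (h0 : ∀ v, (∀ m ∈ M, ρ m v = v) → v = 0) :
    ∃ v : V, ∀ u : V, ρ x u = u → ρ (a * x * a⁻¹) (v - u) ≠ v - u := by
  have h := main q ρ hp h5 hx hn M hM h0
  have e : finrank (ZMod q) (LinearMap.ker (ρ (a * x * a⁻¹) - 1)) ≤ finrank (ZMod q) (LinearMap.ker (ρ x - 1)) := by
    refine le_trans (Submodule.finrank_mono fun v hv => ?_) (Submodule.finrank_map_le (ρ a) _)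
    rw [LinearMap.mem_ker, LinearMap.sub_apply, sub_eq_zero, Module.End.one_apply] at hv
    refine ⟨ρ a⁻¹ v, ?_, by rw [rho_mul]; simp⟩
    rw [SetLike.mem_coe, LinearMap.mem_ker, LinearMap.sub_apply, sub_eq_zero, Module.End.one_apply]
    conv_rhs => rw [← hv]
    rw [rho_mul, rho_mul]; congr 2; group
  have h2 := Submodule.finrank_add_le_finrank_add_finrank (LinearMap.ker (ρ x - 1))
    (LinearMap.ker (ρ (a * x * a⁻¹) - 1))
  have h3 : LinearMap.ker (ρ x - 1) ⊔ LinearMap.ker (ρ (a * x * a⁻¹) - 1) ≠ ⊤ := by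
    intro e
    rw [e, finrank_top] at h2
    omega
  by_contra hc
  push Not at hc
  apply h3
  rw [eq_top_iff]
  intro v _
  obtain ⟨u, h1, h2⟩ := hc v
  rw [show v = u + (v - u) by abel]
  exact Submodule.add_mem_sup (by simp [h1]) (by
    rw [LinearMap.mem_ker, LinearMap.sub_apply, h2]; simp)

theorem gen {A R W : Subgroup G} (hs : Group.IsSolvable A) {x a : G} {p q : ℕ} (hp : p.Prime) (h5 : 5 ≤ p)
    (hx : x ^ p = 1) (ha : a ∈ A) (hA : A = closure {x, a * x * a⁻¹}) (hRA : R ≤ A) (hR : A ≤ 𝐍[R])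
    [hq : Fact q.Prime] (hW : IsPGroup q W) (hAW : A ≤ 𝐍[W]) (hc : (Nat.card R).Coprime q) (hn : ¬ W ≤ 𝐂[R])
    (hmin : ∀ D < W, A ≤ 𝐍[D] → D ≤ 𝐂[R]) :
    ∃ v ∈ W, W ≤ closure {x, (v * a) * x * (v * a)⁻¹} := by
  classical
  have hxA : x ∈ A := hA ▸ subset_closure (by simp)
  let α : A →* MulAut W := W.normalizerMonoidHom.comp (inclusion hAW)
  have hα : ∀ (g : A) (w : W), (α g w : G) = g * w * (g : G)⁻¹ := fun _ _ => rfl
  have hΦ : ∀ w : W, w ∈ frattini W ↔ (w : G) ∈ frattiniOf W := fun w => by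
    rw [← frattiniOf_subgroupOf]; rfl
  obtain ⟨V, _, _, _, π, ρ, πmul, πs, π0, ρπ⟩ := H23.PS.exists_lin (p := q) α (frattini W)
    (fun g w hw => (hΦ _).2 (conj_mem_of_mem_normalizer (le_normalizer_frattiniOf hAW g.2) ((hΦ _).1 hw)))
    (fun d e => (hΦ _).2 (commutator_le_frattiniOf hW (commutator_mem_commutator d.2 e.2)))
    (fun d => (hΦ _).2 (pow_mem_frattiniOf hW d.2))
  have π1 : π 1 = 0 := (π0 1).2 (one_mem _)
  let φ : W →* Multiplicative V := ⟨⟨fun w => Multiplicative.ofAdd (π w), congrArg _ π1⟩,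
    fun a b => congrArg Multiplicative.ofAdd (πmul a b)⟩
  have πinv : ∀ w, π w⁻¹ = -π w := fun w => by
    rw [eq_neg_iff_add_eq_zero, ← πmul, inv_mul_cancel, π1]
  let M := R.subgroupOf A
  haveI : Fintype M := Fintype.ofFinite _
  have hMq : ¬ q ∣ Nat.card M := by
    rw [card_subgroupOf hRA]; exact (Nat.Prime.coprime_iff_not_dvd hq.out).1 hc.symm
  have hMk : (Nat.card M : ZMod q) ≠ 0 := by rwa [Ne, CharP.cast_eq_zero_iff (ZMod q) q]
  have inv : ∀ Y : AddSubgroup V, (∀ g, ∀ y ∈ Y, ρ g y ∈ Y) → Y = ⊤ ∨ ∀ y ∈ Y, ∀ m ∈ M, ρ m y = y := by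
    intro Y hY
    let D := (Y.toSubgroup.comap φ).map W.subtype
    have hD : ∀ w : W, (w : G) ∈ D ↔ π w ∈ Y := fun w => mem_map_iff_mem W.subtype_injective
    by_cases e : D = W
    · left
      rw [eq_top_iff]
      intro v _
      obtain ⟨w, rfl⟩ := πs v
      exact (hD w).1 (by rw [e]; exact w.2)
    · right
      have := hmin D (lt_of_le_of_ne (map_subtype_le _) e) (fun g hg => mem_normalizer_of_conj_mem (by
        rintro _ ⟨w, hw, rfl⟩
        exact (hD (α ⟨g, hg⟩ w)).2 (ρπ ⟨g, hg⟩ w ▸ hY _ _ hw)))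
      intro y hy m hm
      obtain ⟨w, rfl⟩ := πs y
      rw [ρπ]
      congr 1
      apply Subtype.ext
      rw [hα, this ((hD w).2 hy) m hm]; group
  let E : End (ZMod q) V := ∑ m : M, ρ m
  have hE : ∀ v, E v = ∑ m : M, ρ m v := fun v => LinearMap.sum_apply _ _ _
  have hMn : M.Normal := normal_subgroupOf_of_le_normalizer' hR
  have Efix : ∀ v, ∀ m ∈ M, ρ m (E v) = E v := fun v m hm => by
    simp only [hE, map_sum, rho_mul]
    exact Fintype.sum_equiv (Equiv.mulLeft ⟨m, hm⟩) _ _ fun m => rfl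
  have Eof : ∀ v, (∀ m ∈ M, ρ m v = v) → E v = (Nat.card M : ZMod q) • v := fun v hv => by
    rw [hE, Finset.sum_congr rfl (g := fun _ => v) fun (m : M) _ => hv m m.2, Finset.sum_const, Finset.card_univ,
      ← Nat.card_eq_fintype_card, Nat.cast_smul_eq_nsmul]
  have h0 : ∀ v, (∀ m ∈ M, ρ m v = v) → v = 0 := by
    rcases inv (LinearMap.ker E).toAddSubgroup (fun g y hy => by
      have hy' : E y = 0 := hy
      change E (ρ g y) = 0
      have : E (ρ g y) = ρ g (E y) := by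
        simp only [hE, map_sum, rho_mul]
        refine (Fintype.sum_equiv (MulAut.conjNormal (H := M) g).toEquiv _ _ fun m => ?_).symm
        congr 2
        change g * m = g * m * g⁻¹ * g
        group
      rw [this, hy', map_zero]) with h | h
    · intro v hv
      have : E v = 0 := (h ▸ AddSubgroup.mem_top v : v ∈ (LinearMap.ker E).toAddSubgroup)
      rw [Eof v hv] at this
      exact (smul_eq_zero.1 this).resolve_left hMk
    · exfalso
      have all : ∀ v, ∀ m ∈ M, ρ m v = v := fun v m hm => by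
        have h1 := h ((Nat.card M : ZMod q) • v - E v) (by
          change E _ = 0
          rw [map_sub, map_smul, Eof _ (Efix v), sub_self]) m hm
        rw [map_sub, Efix v m hm, sub_left_inj, map_smul] at h1
        exact smul_right_injective V hMk h1
      refine hn (le_centralizer_iff.1 (le_centralizer_of_commutator_le_frattiniOf hW
        (le_antisymm (pResidualOf_le _ _) (le_pResidualOf_of_coprime le_rfl hc)) (hRA.trans hAW) ?_))
      rw [commutator_le]
      intro w hw r hr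
      have h1 := all (π ⟨w⁻¹, W.inv_mem hw⟩) ⟨r, hRA hr⟩ hr
      rw [ρπ] at h1
      have h2 : π (⟨w, hw⟩ * α ⟨r, hRA hr⟩ ⟨w⁻¹, W.inv_mem hw⟩) = 0 := by
        rw [πmul, h1, ← πmul, ← π1]; congr 1; ext; simp
      have h3 := (hΦ _).1 ((π0 _).1 h2)
      rw [commutatorElement_def]
      simpa [hα, mul_assoc] using h3
  have hWb : W ≠ ⊥ := fun e => hn (e ▸ bot_le)
  haveI : Nontrivial V := by
    obtain ⟨w, hw, hw'⟩ := SetLike.exists_of_lt (frattiniOf_lt hWb)
    exact ⟨π ⟨w, hw⟩, 0, fun e => hw' ((hΦ _).1 ((π0 _).1 e))⟩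
  have hncl : normalClosure {(⟨x, hxA⟩ : A)} = ⊤ := by
    rw [eq_top_iff, ← map_le_map_iff_of_injective A.subtype_injective, ← MonoidHom.range_eq_map, range_subtype]
    refine hA.le.trans ((closure_le _).2 ?_)
    have m1 : (⟨x, hxA⟩ : A) ∈ normalClosure {(⟨x, hxA⟩ : A)} := subset_normalClosure rfl
    have m2 := normalClosure_normal.conj_mem _ m1 (⟨a, ha⟩ : A)
    exact Set.insert_subset ⟨_, m1, rfl⟩ (Set.singleton_subset_iff.2 ⟨_, m2, rfl⟩)
  have hx' : (⟨x, hxA⟩ : A) ^ p = 1 := Subtype.ext (by simpa using hx)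
  obtain ⟨v, hv⟩ := card_ker_sq_lt (H := A) (q := q) (V := V) ρ (x := ⟨x, hxA⟩) (a := ⟨a, ha⟩) hp h5 hx' hncl M hMq h0
  obtain ⟨v, rfl⟩ := πs v
  refine ⟨v, v.2, ?_⟩
  by_contra hWH
  set H := closure {x, (v * a) * x * (v * a)⁻¹} with hH
  have hHN : H ≤ 𝐍[W] := (closure_le _).2 (by
    rintro _ (rfl | rfl)
    · exact hAW hxA
    · have := mul_mem (le_normalizer v.2) (hAW ha)
      exact mul_mem (mul_mem this (hAW hxA)) (inv_mem this))
  let y : A := ⟨a, ha⟩ * ⟨x, hxA⟩ * ⟨a, ha⟩⁻¹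
  have hy : ((v * (α y v)⁻¹ : W) : G) * y ∈ H := by
    have : ((v * (α y v)⁻¹ : W) : G) * y = (v * a) * x * (v * a)⁻¹ := by
      simp only [coe_mul, coe_inv, hα, y]; group
    rw [this]; exact subset_closure (by simp)
  have hex : ∀ g : A, ∃ w : W, (w : G) * g ∈ H := by
    have : A ≤ W ⊔ H := hA.le.trans ((closure_le _).2 (by
      rintro _ (rfl | rfl)
      · exact mem_sup_right (subset_closure (by simp))
      · have := mul_mem (mem_sup_left (T := H) (v * (α y v)⁻¹)⁻¹.2) (mem_sup_right (S := W) hy)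
        rw [coe_inv, inv_mul_cancel_left] at this
        exact this))
    intro g
    obtain ⟨w, hw, h, hh, e⟩ := (mem_sup_of_le_normalizer_left hHN).1 (this g.2)
    exact ⟨⟨w, hw⟩⁻¹, by rw [← e]; simpa using hh⟩
  choose s hs' using hex
  have hD : ∀ w : W, (w : G) ∈ H → π w = 0 := by
    rcases inv ((H.subgroupOf W).map φ).toAddSubgroup' (by
      rintro g _ ⟨d, hd, e⟩
      have e' : π d = _ := e
      refine ⟨s g * α g d * (s g)⁻¹, ?_, ?_⟩
      · have : ((s g * α g d * (s g)⁻¹ : W) : G) = (s g * g) * d * ((s g : G) * g)⁻¹ := by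
          simp only [coe_mul, coe_inv, hα]; group
        rw [SetLike.mem_coe, mem_subgroupOf, this]
        exact H.mul_mem (H.mul_mem (hs' g) hd) (H.inv_mem (hs' g))
      · change π _ = ρ g _
        rw [πmul, πmul, πinv, ← ρπ, e']; abel) with h | h
    · refine absurd ((le_of_le_sup_frattiniOf (A := W ⊓ H) inf_le_left fun w hw => ?_).trans inf_le_right) hWH
      obtain ⟨d, hd, e⟩ : π ⟨w, hw⟩ ∈ ((H.subgroupOf W).map φ).toAddSubgroup' := h ▸ AddSubgroup.mem_top _
      have e' : π d = π ⟨w, hw⟩ := e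
      have : π (d⁻¹ * ⟨w, hw⟩) = 0 := by rw [πmul, πinv, e']; abel
      rw [show w = d * ((d⁻¹ * ⟨w, hw⟩ : W) : G) by simp]
      exact mul_mem_sup ⟨d.2, hd⟩ ((hΦ _).1 ((π0 _).1 this))
    · exact fun w hw => h0 _ (h _ ⟨w, hw, rfl⟩)
  let δ : A → V := fun g => π (s g)
  have δu : ∀ (g : A) (w : W), (w : G) * g ∈ H → δ g = π w := fun g w hw => by
    have := hD (s g * w⁻¹) (by simpa [mul_assoc] using H.mul_mem (hs' g) (H.inv_mem hw))
    rw [πmul, πinv] at this
    exact add_neg_eq_zero.1 this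
  have δm : ∀ g g' : A, δ (g * g') = δ g + ρ g (δ g') := fun g g' => by
    rw [δu (g * g') (s g * α g (s g')) (by
      have := H.mul_mem (hs' g) (hs' g')
      simpa [hα, mul_assoc] using this), πmul, ρπ]
  let u : V := (Nat.card M : ZMod q)⁻¹ • ∑ m : M, δ m
  have δM : ∀ m ∈ M, δ m = u - ρ m u := fun m hm => by
    have h1 : ∑ m' : M, δ m' = ∑ m' : M, (δ m + ρ m (δ m')) :=
      (Fintype.sum_equiv (Equiv.mulLeft (⟨m, hm⟩ : M)) (fun m' : M => δ m + ρ m (δ m')) (fun m' : M => δ m')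
        fun m' => (δm m m').symm).symm
    rw [Finset.sum_add_distrib, Finset.sum_const, Finset.card_univ, ← Nat.card_eq_fintype_card,
      ← Nat.cast_smul_eq_nsmul (ZMod q), ← map_sum, ← sub_eq_iff_eq_add] at h1
    simp only [u, map_smul]
    rw [← smul_sub, h1, inv_smul_smul₀ hMk]
  have δall : ∀ g, δ g = u - ρ g u := fun g => by
    rw [← sub_eq_zero]
    refine h0 _ fun m hm => ?_
    have h1 := δm m g
    rw [show m * g = g * (g⁻¹ * m * g) by group, δm, δM _ (hMn.conj_mem' _ hm g), δM m hm, map_sub, rho_mul,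
      show g * (g⁻¹ * m * g) = m * g by group, ← rho_mul] at h1
    rw [map_sub, map_sub, eq_sub_of_add_eq' h1.symm]; abel
  refine hv u ?_ ?_
  · have := δu ⟨x, hxA⟩ 1 (by rw [coe_one, one_mul]; exact Subgroup.subset_closure (by simp))
    rw [δall, π1, sub_eq_zero] at this
    exact this.symm
  · have := δu y _ hy
    rw [δall, πmul, πinv, ← ρπ] at this
    change ρ y _ = _
    rw [map_sub, show ρ y u = u - (π v + -ρ y (π v)) by rw [← this]; abel]; abel

/-- A maximal solvable two-conjugate-generated subgroup: coprime normal pieces centralize. -/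
theorem cent_of_max {A R : Subgroup G} (hs : Group.IsSolvable A) {x a : G} {p q : ℕ} (hp : p.Prime) (h5 : 5 ≤ p)
    (hx : x ^ p = 1) (ha : a ∈ A) (hA : A = closure {x, a * x * a⁻¹})
    (hmax : ∀ B : Subgroup G, A ≤ B → Group.IsSolvable B → (∃ b ∈ B, B = closure {x, b * x * b⁻¹}) → B = A)
    (hRA : R ≤ A) (hR : A ≤ 𝐍[R]) [hq : Fact q.Prime] (hc : (Nat.card R).Coprime q) (W : Subgroup G) :
    IsPGroup q W → A ≤ 𝐍[W] → W ≤ 𝐂[R] := by
  induction W using WellFoundedLT.induction with | ind W ih => ?_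
  intro hW hAW
  by_contra hn
  obtain ⟨v, hv, h⟩ := gen hs hp h5 hx ha hA hRA hR hW hAW hc hn fun D hD hAD => ih D hD (hW.to_le hD.le) hAD
  have hxA : x ∈ A := hA ▸ Subgroup.subset_closure (by simp)
  have hb : v * a ∈ A ⊔ W := mul_mem (mem_sup_right hv) (mem_sup_left ha)
  haveI := hW.isNilpotent
  have e := hmax (A ⊔ W) le_sup_left (H10.isSolvable_sup hAW hs inferInstance) ⟨v * a, hb, le_antisymm
    (sup_le (hA.le.trans ((closure_le _).2 (Set.insert_subset (Subgroup.subset_closure (by simp))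
      (Set.singleton_subset_iff.2 ?_)))) h)
    ((closure_le _).2 (Set.insert_subset (mem_sup_left hxA) (Set.singleton_subset_iff.2
      (mul_mem (mul_mem hb (mem_sup_left hxA)) (inv_mem hb)))))⟩
  · have hWA : W ≤ A := e ▸ le_sup_right
    apply hn
    rw [le_centralizer_iff_commutator]
    obtain ⟨n, hn⟩ := exists_card_eq_pow hW
    exact H10.commutator_eq_bot_of_coprime (hWA.trans hR) (hRA.trans hAW) (hn ▸ (hc.pow_right n).symm)
  · have := mul_mem (mul_mem (inv_mem (h hv)) (Subgroup.subset_closure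
      (k := {x, (v * a) * x * (v * a)⁻¹}) (Set.mem_insert_of_mem _ rfl))) (h hv)
    rwa [show v⁻¹ * (v * a * x * (v * a)⁻¹) * v = a * x * a⁻¹ by group] at this

theorem nilp_of_cent {A V : Subgroup G} (hV : Group.IsNilpotent V) (hAV : A ≤ 𝐍[V])
    (h : ∀ r q : ℕ, r.Prime → q.Prime → r ≠ q → H10.OpOf q V ≤ 𝐂[H10.OpOf r A]) :
    Group.IsNilpotent ↥(H10.FitOf A ⊔ V) := by
  have key : ∀ r : ℕ, r.Prime → H10.OpOf r A ⊔ H10.OpOf r V ≤ H10.FitOf (H10.FitOf A ⊔ V) := by
    intro r hr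
    haveI : Fact r.Prime := ⟨hr⟩
    have n1 : A ≤ 𝐍[H10.OpOf r V] := H10.le_normalizer_OpOf hAV
    have n2 : A ≤ 𝐍[H10.OpOf r A] := H10.le_normalizer_OpOf le_normalizer
    refine H10.le_FitOf (sup_le_sup (H10.OpOf_le_FitOf r) H10.OpOf_le) (sup_le
      (H10.FitOf_le.trans (le_normalizer_sup n2 n1)) (H10.le_of_nilpotent hV fun q hq => ?_))
      (isPGroup_sup_of_le_normalizer_right H10.OpOf_isPGroup H10.OpOf_isPGroup (H10.OpOf_le.trans n1)).isNilpotent
    by_cases e : q = r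
    · subst e; exact le_normalizer_of_le le_sup_right
    · exact le_normalizer_of_le_centralizer (le_centralizer_sup (h r q hr hq (Ne.symm e))
        (H10.OpOf_le_centralizer_OpOf hq hr e))
  have : H10.FitOf (H10.FitOf A ⊔ V) = H10.FitOf A ⊔ V := le_antisymm H10.FitOf_le (sup_le
    (H10.FitOf_le_iff.2 fun r hr => le_sup_left.trans (key r hr))
    (H10.le_of_nilpotent hV fun r hr => le_sup_right.trans (key r hr)))
  rw [← this]
  exact H10.FitOf_nilpotent

end Cfsg.Agent.H1.Flv
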