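import Mathlib

/-! Modules over a cyclic group of prime order used for groups with three automorphism orbits. -/

set_option autoImplicit false

namespace Cfsg.Agent.H1.Orb

open Polynomial

variable {K V : Type*} [Field K] [AddCommGroup V] [Module K V]

theorem aeval_semiconj {S T τ : Module.End K V} (h : ∀ x, τ (S x) = T (τ x)) (g : K[X]) (x : V) :
    τ (aeval S g x) = aeval T g (τ x) := by
  induction g using Polynomial.induction_on' with
  | add a b ha hb => simp [ha, hb]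
  | monomial n a =>
    have := (show Function.Semiconj τ S T from h).iterate_right n x
    simp [aeval_monomial, Module.End.pow_apply, this]

theorem exists_intertw [Finite V] {f : K[X]} (hf : Irreducible f) {S T : Module.End K V}
    (hS : aeval S f = 0) (hT : aeval T f = 0) {v w : V} (hv : v ≠ 0) (hw : w ≠ 0) :
    ∃ τ : V ≃+ V, (∀ x, τ (S x) = T (τ x)) ∧ τ v = w := by
  haveI := Fact.mk hf
  let F := AdjoinRoot f
  have h1 : ∀ S : Module.End K V, aeval S f = 0 → Module.IsTorsionBy K[X] (Module.AEval' S) f :=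
    fun S h x => show aeval S f x = 0 by rw [h]; rfl
  letI : Module F (Module.AEval' S) := (h1 S hS).module
  letI : Module F (Module.AEval' T) := (h1 T hT).module
  haveI : Finite (Module.AEval' S) := ‹Finite V›
  haveI : Finite (Module.AEval' T) := ‹Finite V›
  haveI : Finite F := Finite.of_injective _
    (smul_left_injective F (M := Module.AEval' S) (m := Module.AEval'.of S v) hv)
  obtain ⟨e⟩ : Nonempty (Module.AEval' S ≃ₗ[F] Module.AEval' T) :=
    FiniteDimensional.nonempty_linearEquiv_of_finrank_eq (Nat.pow_right_injective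
      (Finite.one_lt_card (α := F)) (by
        simp only [← Module.natCard_eq_pow_finrank]; rfl))
  have h2 : e (Module.AEval'.of S v) ≠ 0 := (map_ne_zero_iff _ e.injective).mpr hv
  have h3 : Module.AEval'.of T w ≠ 0 := hw
  obtain ⟨g, hg⟩ := Submodule.exists_linearEquiv_restrict_eq
    ((LinearEquiv.toSpanNonzeroSingleton F _ _ h2).symm.trans (LinearEquiv.toSpanNonzeroSingleton F _ _ h3))
  refine ⟨(e.trans g).toAddEquiv, fun x => ?_, ?_⟩
  · have := (e.trans g).map_smul (AdjoinRoot.root f) (Module.AEval'.of S x)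
    change (e.trans g) (aeval S X x) = aeval T X _ at this
    rwa [aeval_X, aeval_X] at this
  · have := hg (LinearEquiv.toSpanNonzeroSingleton F _ _ h2 1)
    rw [LinearEquiv.trans_apply, LinearEquiv.symm_apply_apply, LinearEquiv.toSpanNonzeroSingleton_one,
      LinearEquiv.toSpanNonzeroSingleton_one] at this
    exact this.symm

theorem exists_irred [Finite V] [Nontrivial V] {T : Module.End K V} {g : K[X]} (hg : g ≠ 0)
    (hT : aeval T g = 0)
    (h : ∀ v w : V, v ≠ 0 → w ≠ 0 → ∃ τ : V ≃ₗ[K] V, ∃ k : ℕ, τ v = w ∧ ∀ x, τ (T x) = (T ^ k) (τ x)) :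
    ∃ f, Irreducible f ∧ f ∣ g ∧ aeval T f = 0 ∧ ∀ f', aeval T f' = 0 → f ∣ f' := by
  have hi : IsIntegral K T := IsAlgebraic.isIntegral ⟨g, hg, hT⟩
  obtain ⟨f, h1, h2⟩ := exists_irreducible_of_natDegree_pos (minpoly.natDegree_pos hi)
  let R : V → Set V := fun v => Set.range fun a : K[X] => aeval T a v
  have h3 : ∀ v w, v ≠ 0 → v ∈ R w → w ∈ R v := fun v w hv hvw => by
    have hw : w ≠ 0 := by rintro rfl; obtain ⟨a, rfl⟩ := hvw; simp at hv
    obtain ⟨τ, k, rfl, h⟩ := h w v hw hv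
    have h4 : τ '' R w ⊆ R (τ w) := by
      rintro _ ⟨_, ⟨a, rfl⟩, rfl⟩
      exact ⟨a.comp (X ^ k), by simpa [aeval_comp] using (aeval_semiconj (τ := τ.toLinearMap) h a w).symm⟩
    have h5 : R (τ w) ⊆ R w := by
      obtain ⟨b, hb⟩ := hvw
      rintro _ ⟨a, rfl⟩
      exact ⟨a * b, by simp only [← hb, map_mul]; rfl⟩
    rw [Set.eq_of_subset_of_ncard_le h5
      ((Set.ncard_image_of_injective _ τ.injective).ge.trans (Set.ncard_le_ncard h4))]
    exact ⟨1, by simp⟩
  obtain ⟨v, hv, hv0⟩ : ∃ v, aeval T f v = 0 ∧ v ≠ 0 := by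
    obtain ⟨c, hc⟩ := h2
    have h4 : aeval T c ≠ 0 := fun e => (degree_lt_degree (show c.natDegree < _ by
      rw [hc, natDegree_mul h1.ne_zero (right_ne_zero_of_mul (hc ▸ minpoly.ne_zero hi))]
      have := h1.natDegree_pos; omega)).not_ge
      (minpoly.degree_le_of_ne_zero K T (right_ne_zero_of_mul (hc ▸ minpoly.ne_zero hi)) e)
    obtain ⟨w, hw⟩ := DFunLike.ne_iff.mp h4
    exact ⟨_, by rw [← Module.End.mul_apply, ← map_mul, ← hc, minpoly.aeval]; rfl, hw⟩
  have h4 : aeval T f = 0 := LinearMap.ext fun w => by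
    by_contra hw
    obtain ⟨a, ha⟩ := h3 (aeval T f w) (v + w) hw ⟨f, by simp [hv]⟩
    obtain ⟨b, rfl⟩ := h3 v w hv0 ⟨a * f - 1, by simp [show aeval T a _ = _ from ha]⟩
    exact hw (by rw [← Module.End.mul_apply, ← map_mul, mul_comm, map_mul, Module.End.mul_apply, hv, map_zero]; rfl)
  exact ⟨f, h1, h2.trans (minpoly.dvd K T hT), h4, fun f' h => h2.trans (minpoly.dvd K T h)⟩

theorem orderOf_eq {p q : ℕ} [hp : Fact p.Prime] [hq : Fact q.Prime] (hpq : p ≠ q) {V : Type*}
    [AddCommGroup V] [Module (ZMod p) V] [Finite V] [Nontrivial V] {T : Module.End (ZMod p) V}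
    (hT : aeval T (cyclotomic q (ZMod p)) = 0)
    (h : ∀ v w : V, v ≠ 0 → w ≠ 0 →
      ∃ τ : V ≃ₗ[ZMod p] V, ∃ k : ℕ, τ v = w ∧ ∀ x, τ (T x) = (T ^ k) (τ x))
    (h' : ∀ k ∈ Finset.Ico 1 q, ∃ τ : V ≃ₗ[ZMod p] V, ∀ x, τ (T x) = (T ^ k) (τ x)) :
    orderOf (p : ZMod q) = q - 1 := by
  classical
  obtain ⟨f, h1, h2, h3, h4⟩ := exists_irred (cyclotomic_ne_zero _ _) hT h
  have hc := (Nat.coprime_primes hp.out hq.out).mpr hpq
  have h5 := natDegree_of_dvd_cyclotomic_of_irreducible (f := 1) (p := p) (by simp) hc h2 h1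
  rw [← orderOf_units, ZMod.coe_unitOfCoprime, pow_one] at h5
  haveI := Fact.mk h1
  haveI : NeZero (q : ZMod p) := ⟨fun e => hpq ((Nat.prime_dvd_prime_iff_eq hp.out hq.out).mp
    ((ZMod.natCast_eq_zero_iff _ _).mp e))⟩
  haveI : NeZero (q : AdjoinRoot f) := NeZero.of_injective (algebraMap (ZMod p) _).injective
  have h6 : IsPrimitiveRoot (AdjoinRoot.root f) q := by
    rw [← isRoot_cyclotomic_iff, ← map_cyclotomic q (algebraMap (ZMod p) _)]
    exact (AdjoinRoot.isRoot_root f).dvd (Polynomial.map_dvd _ h2)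
  refine le_antisymm (Nat.le_of_dvd (by have := hq.out.two_le; omega) (ZMod.orderOf_dvd_card_sub_one
    fun e => hpq ((Nat.prime_dvd_prime_iff_eq hq.out hp.out).mp
      ((ZMod.natCast_eq_zero_iff _ _).mp e)).symm)) ?_
  rw [← h5, ← natDegree_map (algebraMap (ZMod p) (AdjoinRoot f)), ← Nat.card_Ico,
    ← Finset.card_image_of_injOn (f := fun k => AdjoinRoot.root f ^ k) fun a ha b hb e =>
      h6.pow_inj (Finset.mem_Ico.mp ha).2 (Finset.mem_Ico.mp hb).2 e]
  refine card_le_degree_of_subset_roots fun x hx => ?_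
  obtain ⟨k, hk, rfl⟩ := Finset.mem_image.mp (Finset.mem_val.mp hx)
  obtain ⟨τ, hτ⟩ := h' k hk
  have h7 : f ∣ f.comp (X ^ k) := h4 _ (LinearMap.ext fun x => by
    obtain ⟨x, rfl⟩ := τ.surjective x
    simpa [aeval_comp, h3] using (aeval_semiconj (τ := τ.toLinearMap) hτ f x).symm)
  rw [mem_roots (map_ne_zero h1.ne_zero), IsRoot.def, eval_map_algebraMap]
  simpa [aeval_comp] using (AdjoinRoot.aeval_eq (f.comp (X ^ k))).trans (AdjoinRoot.mk_eq_zero.mpr h7)

theorem aeval_cyclotomic {q : ℕ} [Fact q.Prime] {T : Module.End K V} (h : T ^ q = 1)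
    (hf : ∀ x, T x = x → x = 0) : aeval T (cyclotomic q K) = 0 := LinearMap.ext fun x => hf _ <| by
  have := congrArg (fun g => aeval T g x) ((mul_comm _ _).trans (cyclotomic_prime_mul_X_sub_one K q))
  simpa [h, sub_eq_zero] using this

variable {p q : ℕ} [hp : Fact p.Prime] [hq : Fact q.Prime] {P : Type*} [CommGroup P]

/-- Automorphisms of a commutative group as linear maps. -/
def lin [Module (ZMod p) (Additive P)] : MulAut P →* Module.End (ZMod p) (Additive P) where
  toFun a := (MonoidHom.toAdditive a.toMonoidHom).toZModLinearMap p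
  map_one' := rfl
  map_mul' _ _ := rfl

theorem orderOf_eq' [Finite P] [Nontrivial P] (hpq : p ≠ q) (hP : ∀ v : P, v ^ p = 1) {T : MulAut P}
    (hT : T ^ q = 1) (hf : ∀ v, T v = v → v = 1)
    (h : ∀ v w : P, v ≠ 1 → w ≠ 1 → ∃ τ : MulAut P, ∃ k : ℕ, τ v = w ∧ ∀ x, τ (T x) = (T ^ k) (τ x))
    (h' : ∀ k ∈ Finset.Ico 1 q, ∃ τ : MulAut P, ∀ x, τ (T x) = (T ^ k) (τ x)) :
    orderOf (p : ZMod q) = q - 1 := by
  letI : Module (ZMod p) (Additive P) := AddCommGroup.zmodModule hP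
  refine orderOf_eq hpq (T := lin T) (aeval_cyclotomic (by rw [← map_pow, hT, map_one]) hf)
    (fun v w hv hw => ?_) fun k hk => ?_
  · obtain ⟨τ, k, h1, h2⟩ := h v w hv hw
    exact ⟨LinearEquiv.ofBijective (lin τ) τ.bijective, k, h1, map_pow (lin (p := p)) T k ▸ h2⟩
  · obtain ⟨τ, h2⟩ := h' k hk
    exact ⟨LinearEquiv.ofBijective (lin τ) τ.bijective, map_pow (lin (p := p)) T k ▸ h2⟩

theorem exists_intertw' [Finite P] (hpq : p ≠ q) (hP : ∀ v : P, v ^ p = 1)
    (h2 : orderOf (p : ZMod q) = q - 1) {S T : MulAut P} (hS : S ^ q = 1) (hS' : ∀ v, S v = v → v = 1)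
    (hT : T ^ q = 1) (hT' : ∀ v, T v = v → v = 1) {v w : P} (hv : v ≠ 1) (hw : w ≠ 1) :
    ∃ τ : MulAut P, (∀ x, τ (S x) = T (τ x)) ∧ τ v = w := by
  letI : Module (ZMod p) (Additive P) := AddCommGroup.zmodModule hP
  have hd : ¬ p ∣ q := mt (Nat.prime_dvd_prime_iff_eq hp.out hq.out).mp hpq
  obtain ⟨τ, h⟩ := exists_intertw (ZMod.irreducible_of_dvd_cyclotomic_of_natDegree hd dvd_rfl (by
    rw [natDegree_cyclotomic, Nat.totient_prime hq.out, ← orderOf_units, ZMod.coe_unitOfCoprime, h2]))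
    (aeval_cyclotomic (T := lin S) (by rw [← map_pow, hS, map_one]) hS')
    (aeval_cyclotomic (T := lin T) (by rw [← map_pow, hT, map_one]) hT')
    (v := Additive.ofMul v) (w := Additive.ofMul w) hv hw
  exact ⟨AddEquiv.toMultiplicative τ, h⟩

end Cfsg.Agent.H1.Orb
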