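import Cfsg.Agent.H1.Separable
import Cfsg.Agent.H2.Product
import Cfsg.Agent.H4.Burnside

/-!
Solvability criteria: Wielandt's theorem on three solvable subgroups, the converse of Hall's
theorem, Sylow systems.
-/

set_option autoImplicit false

namespace Cfsg.Agent.H1

open Subgroup
open scoped Pointwise

universe u

section

variable {G : Type*} [Group G]

theorem le_normalCore_of_fac {H K M : Subgroup G} (h : H2.Fac ⊤ H K)
    (hM : H ≤ normalizer (M : Set G)) (hMK : M ≤ K) : M ≤ K.normalCore := fun m hm g => by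
  obtain ⟨y, hy, x, hx, rfl⟩ := h.symm.top g
  convert mul_mem (mul_mem hy (hMK (conj_mem_of_le_normalizer hM hx hm))) (inv_mem hy) using 1
  group

theorem le_of_fac_of_not_dvd_index [Finite G] {p : ℕ} [Fact p.Prime] {H K M : Subgroup G}
    (h : H2.Fac ⊤ H K) (hM : H ≤ normalizer (M : Set G)) (hp : IsPGroup p M)
    (hK : ¬ p ∣ K.index) : M ≤ K := by
  obtain ⟨P, hP⟩ := exists_isSylowIn p K
  obtain ⟨g, -, hg⟩ := (hP.trans le_top (by rwa [relIndex_top_right])).exists_le_conj le_top hp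
  obtain ⟨x, hx, y, hy, rfl⟩ := h.top g
  intro m hm
  have h1 := hP.le (mem_conj_smul.mp (hg (conj_mem_of_le_normalizer hM hx hm)))
  convert mul_mem (mul_mem hy h1) (inv_mem hy) using 1
  group

end

/-- Wielandt's solvability criterion. -/
theorem isSolvable_of_fac_of_fac (G : Type u) [Group G] [Finite G] : ∀ H₁ H₂ H₃ : Subgroup G,
    Group.IsSolvable H₁ → Group.IsSolvable H₂ → Group.IsSolvable H₃ → H2.Fac ⊤ H₁ H₂ →
    H2.Fac ⊤ H₁ H₃ → H₂.index.Coprime H₃.index → Group.IsSolvable G := by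
  refine H2.card_induction (P := fun G _ _ => ∀ H₁ H₂ H₃ : Subgroup G,
    Group.IsSolvable H₁ → Group.IsSolvable H₂ → Group.IsSolvable H₃ → H2.Fac ⊤ H₁ H₂ →
    H2.Fac ⊤ H₁ H₃ → H₂.index.Coprime H₃.index → Group.IsSolvable G) (fun G _ _ ih => ?_) G
  intro H₁ H₂ H₃ h₁ h₂ h₃ h12 h13 hcop
  by_cases hbot : H₁ = ⊥
  · subst hbot
    rw [← h12.eq_right_of_le bot_le] at h₂
    exact isSolvable_of_mulEquiv topEquiv h₂
  have := (nontrivial_iff_ne_bot H₁).mpr hbot
  obtain ⟨p, hp, hne⟩ := exists_pCore_ne_bot h₁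
  have := Fact.mk hp
  have hM := normalizer_le_normalizer_map_subtype_of_characteristic H₁ (pCore p H₁)
  have hM' := (isPGroup_pCore p H₁).map H₁.subtype
  obtain ⟨N, hN, hNne, hNs⟩ : ∃ N : Subgroup G, N.Normal ∧ N ≠ ⊥ ∧ Group.IsSolvable N := by
    have key : ∀ K : Subgroup G, Group.IsSolvable K → H2.Fac ⊤ H₁ K → ¬ p ∣ K.index →
        ∃ N : Subgroup G, N.Normal ∧ N ≠ ⊥ ∧ Group.IsSolvable N := fun K hK h hd =>
      ⟨K.normalCore, inferInstance, fun h0 => hne ((map_eq_bot_iff_of_injective _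
        H₁.subtype_injective).mp (eq_bot_iff.mpr (h0 ▸ le_normalCore_of_fac h (le_normalizer.trans hM)
          (le_of_fac_of_not_dvd_index h (le_normalizer.trans hM) hM' hd)))),
        isSolvable_of_le K.normalCore_le hK⟩
    by_cases hd : p ∣ H₂.index
    · exact key H₃ h₃ h13 fun hd' => hp.one_lt.ne' (Nat.eq_one_of_dvd_coprimes hcop hd hd')
    · exact key H₂ h₂ h12 hd
  have := ih (G ⧸ N) (card_quotient_lt hNne) _ _ _ (isSolvable_map _ h₁) (isSolvable_map _ h₂)
    (isSolvable_map _ h₃) (h12.map_mk' N) (h13.map_mk' N)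
    ((hcop.coprime_dvd_left (index_map_dvd _ (QuotientGroup.mk'_surjective N))).coprime_dvd_right
      (index_map_dvd _ (QuotientGroup.mk'_surjective N)))
  exact Group.isSolvable_of_ker_le_range N.subtype (QuotientGroup.mk' N) (by simp)

theorem isSolvable_of_coprime_index {G : Type*} [Group G] [Finite G] {H₁ H₂ H₃ : Subgroup G}
    (h₁ : Group.IsSolvable H₁) (h₂ : Group.IsSolvable H₂) (h₃ : Group.IsSolvable H₃)
    (h12 : H₁.index.Coprime H₂.index) (h13 : H₁.index.Coprime H₃.index)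
    (h23 : H₂.index.Coprime H₃.index) : Group.IsSolvable G :=
  isSolvable_of_fac_of_fac G H₁ H₂ H₃ h₁ h₂ h₃ (H2.fac_of_coprime_index h12)
    (H2.fac_of_coprime_index h13) h23

/-- The converse of Hall's theorem. -/
theorem isSolvable_of_forall_exists_pComplement (G : Type u) [Group G] [Finite G] :
    (∀ p : ℕ, p.Prime → ∃ H : Subgroup G, (Nat.card H).Coprime p ∧ ∃ n, H.index = p ^ n) →
      Group.IsSolvable G := by
  refine H2.card_induction (P := fun G _ _ =>
    (∀ p : ℕ, p.Prime → ∃ H : Subgroup G, (Nat.card H).Coprime p ∧ ∃ n, H.index = p ^ n) →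
      Group.IsSolvable G) (fun G _ _ ih => ?_) G
  intro h
  choose! H h1 n h2 using h
  have hcop : ∀ p q : ℕ, p.Prime → q.Prime → p ≠ q → (H p).index.Coprime (H q).index :=
    fun p q hp hq hne => by
      rw [h2 p hp, h2 q hq]
      exact Nat.Coprime.pow _ _ ((Nat.coprime_primes hp hq).mpr hne)
  have hs : ∀ p : ℕ, p.Prime → p ∣ Nat.card G → Group.IsSolvable (H p) := fun p hp hd => by
    refine ih _ (card_lt_of_ne_top fun h0 => ?_) fun q hq => ?_
    · have h3 := h1 p hp
      rw [h0, card_top] at h3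
      exact hp.one_lt.ne' (Nat.eq_one_of_dvd_coprimes h3 hd dvd_rfl)
    by_cases hpq : p = q
    · subst hpq
      exact ⟨⊤, by simpa using h1 p hp, 0, by simp⟩
    · refine ⟨(H q).subgroupOf (H p), (h1 q hq).coprime_dvd_left ?_, n q, ?_⟩
      · rw [card_subgroupOf_eq_inf]
        exact card_dvd_of_le inf_le_left
      · rw [← h2 q hq, ← relIndex_top_right (H q)]
        exact (H2.fac_of_coprime_index (hcop p q hp hq hpq)).relIndex_right.symm
  by_contra hns
  have h3 : ∀ p q : ℕ, p.Prime → q.Prime → ∃ r : ℕ, r.Prime ∧ r ∣ Nat.card G ∧ r ≠ p ∧ r ≠ q :=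
    fun p q hp hq => by
      by_contra hcon
      push Not at hcon
      exact hns (H4.isSolvable_of_forall_prime_dvd hp hq fun r hr hd =>
        or_iff_not_imp_left.mpr (hcon r hr hd))
  obtain ⟨p, hp, hpd, -⟩ := h3 2 2 Nat.prime_two Nat.prime_two
  obtain ⟨q, hq, hqd, hqp, -⟩ := h3 p p hp hp
  obtain ⟨r, hr, hrd, hrp, hrq⟩ := h3 p q hp hq
  exact hns (isSolvable_of_coprime_index (hs p hp hpd) (hs q hq hqd) (hs r hr hrd)
    (hcop _ _ hp hq hqp.symm) (hcop _ _ hp hr hrp.symm) (hcop _ _ hq hr hrq.symm))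

variable {G : Type*} [Group G]

/-- The join of finitely many pairwise permuting `π`-subgroups is a `π`-subgroup. -/
theorem isPiNum_card_biSup_of_fac {ι : Type*} {π : Set ℕ} (S : ι → Subgroup G)
    (hS : ∀ i j, H2.Fac (S i ⊔ S j) (S i) (S j)) (T : Finset ι)
    (hT : ∀ i ∈ T, IsPiNum π (Nat.card (S i))) :
    IsPiNum π (Nat.card (⨆ i ∈ T, S i : Subgroup G)) ∧
      ∀ j, H2.Fac ((⨆ i ∈ T, S i) ⊔ S j) (⨆ i ∈ T, S i) (S j) := by
  classical
  induction T using Finset.induction_on with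
  | empty =>
    simp only [Finset.notMem_empty, iSup_false, iSup_bot, card_bot]
    exact ⟨IsPiNum.one π, fun j => H2.fac_sup_normal_left _ _⟩
  | insert a T _ ih =>
    obtain ⟨h1, h2⟩ := ih fun i hi => hT i (Finset.mem_insert_of_mem hi)
    rw [Finset.iSup_insert, sup_comm]
    exact ⟨(h1.mul (hT a (Finset.mem_insert_self a T))).of_dvd (h2 a).card_dvd,
      fun j => H2.fac_sup_sup (h2 j) (hS a j)⟩

/-- A group with a Sylow system is solvable. -/
theorem isSolvable_of_sylow_system [Finite G] (S : (p : Nat.Primes) → Sylow (p : ℕ) G)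
    (hS : ∀ p q : Nat.Primes, (S p : Set G) * (S q : Set G) = (S q : Set G) * (S p : Set G)) :
    Group.IsSolvable G := by
  classical
  refine isSolvable_of_forall_exists_pComplement G fun p hp => ?_
  let T : Finset Nat.Primes := ((Nat.card G).primeFactors.erase p).subtype Nat.Prime
  have h1 := (isPiNum_card_biSup_of_fac (π := {p}ᶜ) (fun q => (S q : Subgroup G)) (fun q r =>
    H2.fac_sup_of_forall fun k hk a ha => by
      obtain ⟨a', ha', k', hk', h⟩ := hS q r ▸ Set.mul_mem_mul hk ha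
      exact ⟨a', ha', k', hk', h.symm⟩) T fun q hq => by
        have := Fact.mk q.2
        exact isPiNum_card_of_isPGroup (Finset.ne_of_mem_erase (Finset.mem_subtype.mp hq))
          (S q).isPGroup').1
  refine ⟨_, (isPiNum_compl_singleton_iff hp).mp h1,
    (isPiNum_singleton_iff hp FiniteIndex.index_ne_zero).mp fun q hq hd => ?_⟩
  by_contra hne
  have := Fact.mk hq
  refine (S ⟨q, hq⟩).not_dvd_index (hd.trans (index_dvd_of_le ?_))
  exact le_iSup₂_of_le (⟨q, hq⟩ : Nat.Primes) (Finset.mem_subtype.mpr (Finset.mem_erase.mpr ⟨hne,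
    Nat.mem_primeFactors.mpr ⟨hq, hd.trans (index_dvd_card _), Nat.card_pos.ne'⟩⟩)) le_rfl

theorem isPiNum_index_biInf [Finite G] (H : ℕ → Subgroup G) (T : Finset ℕ)
    (hT : ∀ q ∈ T, q.Prime ∧ IsPiNum {q} (H q).index) :
    IsPiNum (T : Set ℕ) (⨅ q ∈ T, H q : Subgroup G).index := by
  induction T using Finset.induction_on with
  | empty => simpa using IsPiNum.one _
  | insert a T ha ih =>
    have h1 := ih fun i hi => hT i (Finset.mem_insert_of_mem hi)
    have h2 := (hT a (Finset.mem_insert_self a T)).2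
    have h3 := (H2.fac_of_coprime_index (h1.coprime (h2.mono (by simpa using ha)))).relIndex_right
    rw [Finset.iInf_insert, ← relIndex_mul_index (inf_le_right : H a ⊓ _ ≤ _), inf_relIndex_right,
      ← h3, relIndex_top_right]
    exact (h2.mono (by simp)).mul (h1.mono (by simp))

/-- A finite solvable group has a Sylow system. -/
theorem exists_sylow_system [Finite G] (hG : Group.IsSolvable G) :
    ∃ S : (p : Nat.Primes) → Sylow (p : ℕ) G,
      ∀ p q : Nat.Primes, (S p : Set G) * (S q : Set G) = (S q : Set G) * (S p : Set G) := by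
  choose H hH using fun q : ℕ => exists_isPiHall ({q}ᶜ : Set ℕ) hG
  simp only [isPiHall_iff, compl_compl] at hH
  let L : Finset ℕ → Subgroup G := fun T => ⨅ q ∈ (Nat.card G).primeFactors \ T, H q
  have h1 : ∀ T : Finset ℕ, IsPiNum (T : Set ℕ)ᶜ (L T).index := fun T =>
    (isPiNum_index_biInf H _ fun q hq => ⟨Nat.prime_of_mem_primeFactors (Finset.mem_sdiff.mp hq).1,
      (hH q).2⟩).mono fun q hq => (Finset.mem_sdiff.mp hq).2
  have h2 : ∀ T : Finset ℕ, IsPiNum (T : Set ℕ) (Nat.card (L T)) := fun T q hq hd => by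
    by_contra hne
    exact (hH q).1 q hq (hd.trans (card_dvd_of_le (iInf₂_le q (Finset.mem_sdiff.mpr
      ⟨Nat.mem_primeFactors.mpr ⟨hq, hd.trans (card_subgroup_dvd_card _), Nat.card_pos.ne'⟩,
        hne⟩)))) rfl
  have h3 : ∀ S T, S ⊆ T → L S ≤ L T := fun S T h =>
    le_iInf₂ fun q hq => iInf₂_le q (Finset.sdiff_subset_sdiff subset_rfl h hq)
  have h4 : ∀ p : Nat.Primes, ∃ P : Sylow (p : ℕ) G, (P : Subgroup G) = L {p.1} := fun p => by
    have := Fact.mk p.2
    refine IsSylowIn.exists_sylow_top ⟨le_top, isPiNum_singleton_card_iff.mp (by simpa using h2 {p.1}),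
      fun hd => h1 {p.1} p p.2 (by rwa [relIndex_top_right] at hd) (by simp)⟩
  choose S hS using h4
  have h5 : ∀ p q : Nat.Primes, p ≠ q → H2.Fac (L {p.1, q.1}) (S p) (S q) := fun p q hne => by
    rw [hS, hS]
    refine H2.fac_of_coprime_relIndex (h3 _ _ (by simp)) (h3 _ _ (by simp))
      (Nat.Coprime.symm (Nat.coprime_of_dvd' fun r hr hd1 hd2 => ?_))
    have h6 := h2 {p.1, q.1} r hr (hd1.trans (relIndex_dvd_card _ _))
    have h7 := h1 _ r hr (hd1.trans (Dvd.intro _ (relIndex_mul_index (h3 _ _ (by simp)))))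
    have h8 := h1 _ r hr (hd2.trans (Dvd.intro _ (relIndex_mul_index (h3 _ _ (by simp)))))
    simp_all
  refine ⟨S, fun p q => ?_⟩
  by_cases hpq : p = q
  · subst hpq
    rfl
  · exact (H2.fac_iff_coe.mp (h5 p q hpq)).symm.trans (H2.fac_iff_coe.mp (h5 p q hpq).symm)

end Cfsg.Agent.H1
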