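import Cfsg.Agent.H2.Subnormal

/-! The generalized zipper lemma of Guralnick and Tracey. -/

set_option autoImplicit false

namespace Cfsg.Agent.H1.Zip

open Subgroup H10 H2
open scoped Pointwise

variable {G : Type*} [Group G] [Finite G] {A B H K L M : Subgroup G} {n : ℕ}

local notation "𝔠" g:max H:max => MulAut.conj g • H
local notation "𝔑" H:max => normalizer ((H : Subgroup G) : Set G)

/-- No proper subnormal subgroup of `H` contains `A`. -/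
def Cl (A H : Subgroup G) : Prop := ∀ K, A ≤ K → SubnormalIn K H → K = H

/-- The join of the proper overgroups generated by conjugates. -/
def Y (A : Subgroup G) : Subgroup G := sSup {H | A ≤ H ∧ H ≠ ⊤ ∧ Cl A H}

/-- The conclusion of the theorem. -/
def Concl (A : Subgroup G) : Prop :=
  Cl A ⊤ → A ≠ ⊤ → Y A = ⊤ ∨ ∃ M, M ≠ ⊤ ∧ ∀ H, A ≤ H → H ≠ ⊤ → H ≤ M

omit [Finite G] in
theorem cl_iff (h : A ≤ H) : Cl A H ↔ normalClosure ((A.subgroupOf H : Subgroup H) : Set H) = ⊤ := by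
  refine ⟨fun h1 => ?_, fun h1 K h2 h3 => by_contra fun h4 => ?_⟩
  · rw [← map_subtype_inj, ← MonoidHom.range_eq_map, range_subtype]
    refine h1 _ (fun x hx => ⟨⟨x, h hx⟩, subset_normalClosure hx, rfl⟩)
      (SubnormalIn.map_subtype (Normal.isSubnormal inferInstance))
  · obtain ⟨N, h5, h6, h7⟩ := h3.exists_normal h4
    haveI := (normal_subgroupOf_iff_le_normalizer h6.le).mpr h7
    exact h6.not_ge (subgroupOf_eq_top.mp (eq_top_iff.mpr (h1 ▸ normalClosure_le_normal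
      (N := N.subgroupOf H) fun x hx => h5 (h2 hx))))

omit [Finite G] in
theorem conj_top (g : G) : 𝔠 g (⊤ : Subgroup G) = ⊤ := H3.conj_smul_eq_of_mem (mem_top g)

omit [Finite G] in
theorem conj_ne_top {g : G} (h : H ≠ ⊤) : 𝔠 g H ≠ ⊤ := fun e =>
  h (MulAction.injective (MulAut.conj g) (e.trans (conj_top g).symm))

omit [Finite G] in
theorem Cl.conj (h : Cl A H) (g : G) : Cl (𝔠 g A) (𝔠 g H) := fun K h1 h2 => by
  obtain ⟨K, rfl⟩ := MulAction.surjective (MulAut.conj g) K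
  have := subnormalIn_conj h2 g⁻¹
  simp only [map_inv, inv_smul_smul] at this
  rw [h K (pointwise_smul_le_pointwise_smul_iff.mp h1) this]

/-- A subgroup with its exceptional maximal overgroup. -/
structure Pair (n : ℕ) (A M : Subgroup G) : Prop where
  card : Nat.card A = n
  cl : Cl A ⊤
  max : IsCoatom M
  norm : 𝔑 A ≤ M
  sub : ∀ H, H ≠ ⊤ → A ≤ H → ¬ H ≤ M → SubnormalIn A H

omit [Finite G] in
theorem Pair.le (h : Pair n A M) : A ≤ M := le_normalizer.trans h.norm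

omit [Finite G] in
theorem Pair.conj (h : Pair n A M) (g : G) : Pair n (𝔠 g A) (𝔠 g M) where
  card := (H3.card_conj_smul _ _).trans h.card
  cl := conj_top g ▸ h.cl.conj g
  max := (OrderIso.isCoatom_iff (MulAut.conj g).mapSubgroup M).mpr h.max
  norm := H3.normalizer_conj_smul A g ▸ H3.conj_smul_mono g h.norm
  sub H h1 h2 h3 := by
    obtain ⟨H, rfl⟩ := MulAction.surjective (MulAut.conj g) H
    exact subnormalIn_conj (h.sub H (fun e => h1 (e ▸ conj_top g))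
      (pointwise_smul_le_pointwise_smul_iff.mp h2) fun e => h3 (H3.conj_smul_mono g e)) g

theorem Pair.mem (h : Pair n A M) {g : G} (hg : M ≤ 𝔠 g M) : g ∈ M := by
  have h1 : g ∈ 𝔑 M := H3.mem_normalizer_iff_conj_smul.mpr
    ((h.max.le_iff.mp hg).resolve_left (conj_ne_top h.max.1))
  rcases h.max.le_iff.mp (le_normalizer (H := M)) with e | e
  · exact (h.max.1 (h.cl M h.le (SubnormalIn.of_normal le_top e.ge))).elim
  · exact e ▸ h1

variable (ih : ∀ B : Subgroup G, n < Nat.card B → Concl B)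
include ih

theorem Pair.alt {B N : Subgroup G} (h : Pair n A M) (h' : Pair n B N) (h1 : L ≠ ⊤) (h2 : A ≤ L)
    (h3 : ¬ L ≤ M) (h4 : B ≤ L) (h5 : B ≤ M) : B = A ∨ (A ≤ N ∧ N ≠ M) := by
  by_cases h6 : B ≤ A
  · exact Or.inl (eq_of_le_of_card_ge h6 (h.card.trans h'.card.symm).le)
  have h7 : A ⊔ B ≤ M := sup_le h.le h5
  rcases ih (A ⊔ B) (h.card ▸ card_lt_of_lt (left_lt_sup.mpr h6))
    (fun K hK => h.cl K (le_sup_left.trans hK)) (ne_top_of_le_ne_top h.max.1 h7) with e | ⟨M', e1, e2⟩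
  · obtain ⟨H, ⟨h8, h9, h10⟩, h11⟩ : ∃ H ∈ {H | A ⊔ B ≤ H ∧ H ≠ ⊤ ∧ Cl (A ⊔ B) H}, ¬ H ≤ M := by
      by_contra! h8
      exact h.max.1 (top_le_iff.mp (e.ge.trans (sSup_le h8)))
    have h12 : H ≤ N := by_contra fun h12 => h11 (h10 _ le_rfl (subnormalIn_sup
      (h.sub H h9 (le_sup_left.trans h8) h11) (h'.sub H h9 (le_sup_right.trans h8) h12)) ▸ h7)
    exact Or.inr ⟨le_sup_left.trans (h8.trans h12), fun e => h11 (e ▸ h12)⟩
  · exact (h3 ((h.max.le_iff.mp (e2 M h7 h.max.1)).resolve_left e1 ▸ e2 L (sup_le h2 h4) h1)).elim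

theorem Pair.inf_le (h : Pair n A M) (h1 : L ≠ ⊤) (h2 : A ≤ L) (h3 : ¬ L ≤ M) : L ⊓ M ≤ 𝔑 A :=
  fun g hg => H3.mem_normalizer_iff_conj_smul.mpr <| (h.alt ih (h.conj g) h1 h2 h3
    (conj_smul_le_of_le h2 ⟨g, hg.1⟩) (conj_smul_le_of_le h.le ⟨g, hg.2⟩)).resolve_right
      fun e => e.2 (H3.conj_smul_eq_of_mem hg.2)

theorem Pair.le_norm {B N : Subgroup G} (h : Pair n A M) (h' : Pair n B N) (h1 : L ≠ ⊤) (h2 : A ≤ L)
    (h3 : ¬ L ≤ M) (h4 : B ≤ L) (h5 : B ≤ M) : A ≤ 𝔑 B := by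
  rcases h.alt ih h' h1 h2 h3 h4 h5 with rfl | ⟨h6, h7⟩
  · exact le_normalizer
  · exact (le_inf h.le h6).trans (h'.inf_le ih h.max.1 h5 fun e =>
      h7 ((h.max.le_iff.mp e).resolve_left h'.max.1))

omit ih in
theorem Pair.exists_norm (h : Pair n A M) (hK : IsCoatom K) (h1 : ¬ K ≤ L) : ∃ x ∈ K, x ∉ L ∧
    x ∈ 𝔑 (sSup {C | C ≤ L ∧ C ≤ K ∧ ∃ g : G, C = 𝔠 g A ∧ 𝔠 g M ≠ K}) := by
  let S := {C | C ≤ K ∧ ∃ g : G, C = 𝔠 g A ∧ 𝔠 g M ≠ K}
  have h2 : ∀ C ∈ S, ∀ x ∈ K, 𝔠 x C ∈ S := by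
    rintro _ ⟨h2, g, rfl, h3⟩ x hx
    refine ⟨conj_smul_le_of_le h2 ⟨x, hx⟩, x * g, H3.conj_smul_conj_smul _ _ _, fun e => h3 ?_⟩
    rw [← H3.conj_smul_conj_smul, ← H3.conj_smul_eq_of_mem hx] at e
    exact MulAction.injective _ e
  by_cases h3 : ∀ C ∈ S, C ≤ L
  · obtain ⟨x, hx, hx'⟩ := SetLike.not_le_iff_exists.mp h1
    exact ⟨x, hx, hx', mem_normalizer_sSup fun C hC => ⟨h3 _ (h2 C hC.2 x hx), h2 C hC.2 x hx⟩⟩
  · push Not at h3
    obtain ⟨C, hC, hC'⟩ := h3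
    obtain ⟨X, h4, h5, h6⟩ := exists_not_mem_le_normalizer_sSup (V := K) (S := S)
      (S₀ := {C | C ≤ L ∧ C ∈ S}) (by
        rintro _ ⟨h2, g, rfl, h3⟩
        exact (h.conj g).sub K hK.1 h2 fun e => h3 ((hK.le_iff.mp e).resolve_left (h.conj g).max.1))
      h2 ⟨fun _ h => h.2, fun e => hC' (e hC).1⟩
    obtain ⟨x, hx, hx'⟩ := SetLike.not_le_iff_exists.mp fun e => h5 ⟨e, h4⟩
    exact ⟨x, h4.1 hx, hx', h6 hx⟩

theorem Pair.unique (h : Pair n A M) (h1 : H ≠ ⊤) (h2 : A ≤ H) : H ≤ M := by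
  by_contra h3
  let T : Subgroup G → Subgroup G := fun L => sSup {C | C ≤ L ∧ C ≤ M ∧ ∃ g : G, C = 𝔠 g A}
  have hT : ∀ L, T L ≤ L ⊓ M := fun L => sSup_le fun C hC => le_inf hC.1 hC.2.1
  have hA : ∀ L, A ≤ L → A ≤ T L := fun L hL => le_sSup ⟨hL, h.le, 1, by simp⟩
  have hex : ∀ H, H ≠ ⊤ → ¬ H ≤ M → ∃ L, IsCoatom L ∧ H ≤ L ∧ ¬ L ≤ M := fun H h1 h2 =>
    let ⟨L, h3, h4⟩ := (eq_top_or_exists_le_coatom H).resolve_left h1
    ⟨L, h3, h4, fun e => h2 (h4.trans e)⟩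
  obtain ⟨L₀, h4, h5, h6⟩ := hex H h1 h3
  obtain ⟨_, ⟨L, hL, hAL, hLM, rfl⟩, hm⟩ := (wellFounded_gt (α := Subgroup G)).has_min
    {X | ∃ L, IsCoatom L ∧ A ≤ L ∧ ¬ L ≤ M ∧ X = T L} ⟨_, L₀, h4, h2.trans h5, h6, rfl⟩
  have hmax : ∀ L', IsCoatom L' → ¬ L' ≤ M → T L ≤ L' → T L' = T L := fun L' h1 h2 h3 =>
    ((sSup_le fun C hC => le_sSup ⟨(le_sSup hC).trans h3, hC.2⟩ : T L ≤ T L').eq_or_lt.resolve_right
      (hm _ ⟨L', h1, (hA L hAL).trans h3, h2, rfl⟩)).symm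
  obtain ⟨x, hx, hxM, hxn⟩ := h.exists_norm hL hLM
  have h7 : x ∈ 𝔑 (T L) := by
    refine mem_normalizer_of_conj_smul_le ?_
    rw [conj_smul_sSup]
    refine iSup₂_le ?_
    rintro _ ⟨h7, h8, g, rfl⟩
    by_cases e : 𝔠 g M = L
    · refine le_sSup ⟨conj_smul_le_of_le h7 ⟨x, hx⟩, le_trans ?_ h.norm, x * g,
        H3.conj_smul_conj_smul _ _ _⟩
      have h9 : 𝔠 x⁻¹ A ≤ M ⊓ L := (conj_smul_le_of_mem_normalizer (le_sSup (by
        exact ⟨h.le, hAL, 1, by simp, by simpa using fun e => hLM e.ge⟩)) (inv_mem hxn)).trans (sSup_le fun C hC => le_inf hC.1 hC.2.1)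
      have := H3.conj_smul_mono x ((h.conj g).le_norm ih (h.conj x⁻¹) h.max.1 h8
        (fun e' => hLM ((h.max.le_iff.mp (e ▸ e')).resolve_left hL.1).le) (h9.trans inf_le_left)
        (e ▸ h9.trans inf_le_right))
      rwa [← H3.normalizer_conj_smul, map_inv, smul_inv_smul] at this
    · exact (conj_smul_le_of_mem_normalizer (le_sSup (by exact ⟨h8, h7, g, rfl, e⟩)) hxn).trans
        (sSup_le fun C ⟨h1, h2, g, h3, _⟩ => le_sSup ⟨h2, h1, g, h3⟩)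
  obtain ⟨L', hL', h8, h9⟩ := hex (𝔑 (T L)) (fun e => h.max.1 (top_le_iff.mp ((h.cl _ (hA L hAL)
    (SubnormalIn.of_normal le_top e.ge)).ge.trans ((hT L).trans inf_le_right)))) fun e => hxM (e h7)
  have h10 := hmax L' hL' h9 (le_normalizer.trans h8)
  have hAL' := (hA L hAL).trans (le_normalizer.trans h8)
  have h11 : T L ≤ 𝔠 x M := by
    rw [← H3.mem_normalizer_iff_conj_smul.mp h7]
    exact H3.conj_smul_mono x ((hT L).trans inf_le_right)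
  have h12 : ¬ M ≤ 𝔠 x M := fun e => hxM (h.mem e)
  have h13 := hmax _ (h.conj x).max (fun e => h12 (((h.conj x).max.le_iff.mp e).resolve_left h.max.1).le) h11
  obtain ⟨y, hy, hyL, hyn⟩ := h.exists_norm (L := L') h.max fun e =>
    h9 ((h.max.le_iff.mp e).resolve_left hL'.1).le
  have h14 : 𝔠 x A ≤ L' ⊓ M := (conj_smul_le_of_mem_normalizer (hA L hAL) h7).trans (h10 ▸ hT L')
  have h15 : 𝔠 y⁻¹ (𝔠 x A) ≤ L' ⊓ M := (conj_smul_le_of_mem_normalizer (le_sSup (by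
    exact ⟨h14.trans inf_le_left, h14.trans inf_le_right, x, rfl, fun e => h12 e.ge⟩)) (inv_mem hyn)).trans
    (sSup_le fun C hC => le_inf hC.1 hC.2.1)
  have h16 := H3.conj_smul_mono y (h.le_norm ih ((h.conj x).conj y⁻¹) hL'.1 hAL' h9
    (h15.trans inf_le_left) (h15.trans inf_le_right))
  rw [← H3.normalizer_conj_smul, map_inv, smul_inv_smul] at h16
  have h17 : 𝔠 y A ≤ T L' := h10 ▸ h13 ▸ le_sSup ⟨h16.trans (h.conj x).norm,
    conj_smul_le_of_le h.le ⟨y, hy⟩, y, rfl⟩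
  have h18 : 𝔠 y A = A := (h.alt ih (h.conj y) hL'.1 hAL' h9 (h17.trans ((hT L').trans inf_le_left))
    (h17.trans ((hT L').trans inf_le_right))).resolve_right fun e => e.2 (H3.conj_smul_eq_of_mem hy)
  refine hyL (h8 (h10 ▸ mem_normalizer_of_conj_smul_le ?_))
  rw [conj_smul_sSup]
  refine iSup₂_le ?_
  rintro _ ⟨h7, h8, g, rfl⟩
  rcases h.alt ih (h.conj g) hL'.1 hAL' h9 h7 h8 with e | e
  · rw [e, h18]; exact hA L' hAL'
  · exact (conj_smul_le_of_mem_normalizer (le_sSup (by exact ⟨h7, h8, g, rfl, e.2⟩)) hyn).trans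
      (sSup_le fun C ⟨h1, h2, g, h3, _⟩ => le_sSup ⟨h1, h2, g, h3⟩)

omit ih

theorem concl (A : Subgroup G) : Concl A := by
  induction h : Nat.card G - Nat.card A using Nat.strong_induction_on generalizing A with
  | _ m ih =>
  have ih' : ∀ B : Subgroup G, Nat.card A < Nat.card B → Concl B := fun B hB =>
    ih _ (by have := B.card_le_card_group; omega) B rfl
  intro h1 h2
  refine or_iff_not_imp_left.mpr fun h3 => ?_
  have h4 : A ≤ Y A := le_sSup ⟨le_rfl, h2, fun K h h' => h'.le.antisymm h⟩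
  obtain ⟨M, h5, h6⟩ := (eq_top_or_exists_le_coatom (𝔑 (Y A))).resolve_left fun e =>
    h3 (h1 _ h4 (SubnormalIn.of_normal le_top e.ge))
  refine ⟨M, h5.1, fun H h7 h8 => Pair.unique ih' ⟨rfl, h1, h5, fun g hg => h6 (mem_normalizer_sSup
    fun H hH => ?_), fun H h7 h8 h9 => ?_⟩ h8 h7⟩
  · rw [H3.mem_normalizer_iff_conj_smul] at hg
    exact ⟨hg ▸ H3.conj_smul_mono g hH.1, conj_ne_top hH.2.1, hg ▸ hH.2.2.conj g⟩
  · obtain ⟨B, ⟨h10, h11⟩, h12⟩ := (wellFounded_lt (α := Subgroup G)).has_min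
      {B | A ≤ B ∧ SubnormalIn B H} ⟨H, h8, SubnormalIn.refl H⟩
    have h13 : Cl A B := fun K h h' => h'.le.eq_or_lt.resolve_right (h12 K ⟨h, h'.trans h11⟩)
    have h14 := ne_top_of_le_ne_top h7 h11.le
    rcases h10.eq_or_lt with rfl | h15
    · exact h11
    rcases ih' B (card_lt_of_lt h15) (fun K h => h1 K (h10.trans h)) h14 with e | ⟨M', e1, e2⟩
    · refine (h3 (top_le_iff.mp (e.ge.trans (sSup_le_sSup fun K hK =>
        ⟨h10.trans hK.1, hK.2.1, fun X hX hX' => hK.2.2 X ?_ hX'⟩)))).elim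
      exact inf_eq_right.mp (h13 _ (le_inf hX h10) (hX'.inf_of_le hK.1))
    · exact (h9 ((h5.le_iff.mp (e2 M ((le_sSup ⟨h10, h14, h13⟩ : B ≤ Y A).trans
        (le_normalizer.trans h6)) h5.1)).resolve_left e1 ▸ e2 H h11.le h7)).elim

end Cfsg.Agent.H1.Zip
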